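import Cfsg.Agent.Lib.Balance.Core

/-!
Criteria for the `p'`-core of a centraliser, and images of model groups.
-/

set_option autoImplicit false

namespace Cfsg.Agent.Lib.Balance

variable {X : Type*} [Group X] [Finite X] {p : ℕ}

/-- The core is trivial when a normal subgroup has no `p'`-normal subgroup and nothing of coprime
order centralises a part of it. -/
theorem core_eq_bot {C M T : Subgroup X} (hMC : M ≤ C) (hMn : ∀ c ∈ C, ∀ z ∈ M, c * z * c⁻¹ ∈ M)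
    (hTM : T ≤ M)
    (hM : ∀ R : Subgroup X, R ≤ M → (∀ m ∈ M, ∀ r ∈ R, m * r * m⁻¹ ∈ R) →
      (Nat.card R).Coprime p → R = ⊥)
    (hcent : ∀ c ∈ C, (orderOf c).Coprime p → (∀ t ∈ T, c * t = t * c) → c = 1) :
    Cfsg.pPrimeCore p C = ⊥ := by
  set N := (Cfsg.pPrimeCore p C).map C.subtype with hN
  have hNn : ∀ c ∈ C, ∀ z ∈ N, c * z * c⁻¹ ∈ N := by
    rintro c hc _ ⟨z, hz, rfl⟩
    exact ⟨⟨c, hc⟩ * z * ⟨c, hc⟩⁻¹, (core_normal p).conj_mem z hz _, rfl⟩
  have hNC : N ≤ C := Subgroup.map_subtype_le _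
  have hNc : (Nat.card N).Coprime p := by
    rw [hN, Subgroup.card_map_of_injective C.subtype_injective]; exact core_coprime p
  have hint : N ⊓ M = ⊥ := hM _ inf_le_right
    (fun m hm r hr => Subgroup.mem_inf.2 ⟨hNn m (hMC hm) r hr.1, mul_mem (mul_mem hm hr.2) (inv_mem hm)⟩)
    (hNc.of_dvd_left (Subgroup.card_dvd_of_le inf_le_left))
  refine (Subgroup.map_eq_bot_iff_of_injective _ C.subtype_injective).1
    ((Subgroup.eq_bot_iff_forall _).2 fun z hz => ?_)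
  have hzo : (orderOf z).Coprime p := by
    refine hNc.of_dvd_left ?_
    rw [show orderOf z = orderOf (⟨z, hz⟩ : N) from Subgroup.orderOf_coe (⟨z, hz⟩ : N)]
    exact orderOf_dvd_natCard _
  refine hcent z (hNC hz) hzo fun t ht => ?_
  have hmem : z * t * z⁻¹ * t⁻¹ ∈ N ⊓ M := by
    refine Subgroup.mem_inf.2 ⟨?_, mul_mem (hMn z (hNC hz) t (hTM ht)) (inv_mem (hTM ht))⟩
    rw [show z * t * z⁻¹ * t⁻¹ = z * (t * z⁻¹ * t⁻¹) by group]
    exact mul_mem hz (hNn t (hMC (hTM ht)) _ (inv_mem hz))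
  rw [hint, Subgroup.mem_bot, mul_inv_eq_one, mul_inv_eq_iff_eq_mul] at hmem
  exact hmem

theorem core_ne_bot_iff' [Fact p.Prime] {C M T : Subgroup X} (hMC : M ≤ C)
    (hMn : ∀ c ∈ C, ∀ z ∈ M, c * z * c⁻¹ ∈ M) (hTM : T ≤ M) (hne : M ≠ ⊥)
    (hM : p ∣ Nat.card M → ∀ R : Subgroup X, R ≤ M → (∀ m ∈ M, ∀ r ∈ R, m * r * m⁻¹ ∈ R) →
      (Nat.card R).Coprime p → R = ⊥)
    (hcent : ∀ c ∈ C, (orderOf c).Coprime p → (∀ t ∈ T, c * t = t * c) → c = 1) :
    Cfsg.pPrimeCore p C ≠ ⊥ ↔ Nat.Coprime p (Nat.card M) := by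
  constructor
  · intro h
    rw [(Fact.out : p.Prime).coprime_iff_not_dvd]
    exact fun hp => h (core_eq_bot hMC hMn hTM (hM hp) hcent)
  · intro hc hbot
    have h := le_core (X := C) (p := p) (N := M.subgroupOf C)
      ⟨fun z hz c => hMn c c.2 z hz⟩
      (by rw [Nat.card_congr (Subgroup.subgroupOfEquivOfLe hMC).toEquiv, Nat.coprime_comm]; exact hc)
    rw [hbot, le_bot_iff, Subgroup.subgroupOf_eq_bot, disjoint_iff, inf_eq_left.2 hMC] at h
    exact hne h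

/-- Normal subgroups of odd order lie in the subgroup containing the squares. -/
theorem bot_of_sq {M T : Subgroup X} (hTM : T ≤ M) (hsq : ∀ m ∈ M, m * m ∈ T)
    (hT : ∀ R : Subgroup X, R ≤ T → (∀ t ∈ T, ∀ r ∈ R, t * r * t⁻¹ ∈ R) → Odd (Nat.card R) → R = ⊥)
    {R : Subgroup X} (hR : R ≤ M) (hRn : ∀ m ∈ M, ∀ r ∈ R, m * r * m⁻¹ ∈ R)
    (hc : (Nat.card R).Coprime 2) : R = ⊥ := by
  have hodd : Odd (Nat.card R) := Nat.coprime_two_right.1 hc
  refine hT R (fun r hr => ?_) (fun t ht => hRn t (hTM ht)) hodd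
  obtain ⟨k, hk⟩ := hodd
  have h1 : r ^ Nat.card R = 1 := by
    refine orderOf_dvd_iff_pow_eq_one.1 ?_
    rw [show orderOf r = orderOf (⟨r, hr⟩ : R) from Subgroup.orderOf_coe (⟨r, hr⟩ : R)]
    exact orderOf_dvd_natCard _
  have h2 : r = r ^ (k + 1) * r ^ (k + 1) := by
    rw [← pow_add, show k + 1 + (k + 1) = Nat.card R + 1 by omega, pow_succ, h1, one_mul]
  rw [h2]
  exact hsq _ (hR (pow_mem hr _))

/-- Normal subgroups meeting a normal subgroup trivially centralise it. -/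
theorem bot_of_normal {M T : Subgroup X} (hTM : T ≤ M) (hTn : ∀ m ∈ M, ∀ t ∈ T, m * t * m⁻¹ ∈ T)
    (hT : ∀ R : Subgroup X, R ≤ T → (∀ t ∈ T, ∀ r ∈ R, t * r * t⁻¹ ∈ R) →
      (Nat.card R).Coprime p → R = ⊥)
    (hcent : ∀ c ∈ M, (orderOf c).Coprime p → (∀ t ∈ T, c * t = t * c) → c = 1)
    {R : Subgroup X} (hR : R ≤ M) (hRn : ∀ m ∈ M, ∀ r ∈ R, m * r * m⁻¹ ∈ R)
    (hc : (Nat.card R).Coprime p) : R = ⊥ := by
  have hint : R ⊓ T = ⊥ := hT _ inf_le_right
    (fun t ht r hr => Subgroup.mem_inf.2 ⟨hRn t (hTM ht) r hr.1, mul_mem (mul_mem ht hr.2) (inv_mem ht)⟩)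
    (hc.of_dvd_left (Subgroup.card_dvd_of_le inf_le_left))
  refine (Subgroup.eq_bot_iff_forall _).2 fun z hz => hcent z (hR hz) ?_ fun t ht => ?_
  · refine hc.of_dvd_left ?_
    rw [show orderOf z = orderOf (⟨z, hz⟩ : R) from Subgroup.orderOf_coe (⟨z, hz⟩ : R)]
    exact orderOf_dvd_natCard _
  · have hmem : z * t * z⁻¹ * t⁻¹ ∈ R ⊓ T := by
      refine Subgroup.mem_inf.2 ⟨?_, mul_mem (hTn z (hR hz) t ht) (inv_mem ht)⟩
      rw [show z * t * z⁻¹ * t⁻¹ = z * (t * z⁻¹ * t⁻¹) by group]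
      exact mul_mem hz (hRn t (hTM ht) _ (inv_mem hz))
    rw [hint, Subgroup.mem_bot, mul_inv_eq_one, mul_inv_eq_iff_eq_mul] at hmem
    exact hmem

omit [Finite X] in
/-- Normal subgroups of the image of a group with few normal subgroups. -/
theorem bot_or_range {H : Type*} [Group H] (θ : H →* X)
    (hH : ∀ K : Subgroup H, K.Normal → K ≤ θ.ker ∨ K ⊔ θ.ker = ⊤) {R : Subgroup X}
    (hR : R ≤ θ.range) (hRn : ∀ t ∈ θ.range, ∀ r ∈ R, t * r * t⁻¹ ∈ R) : R = ⊥ ∨ R = θ.range := by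
  have hn : (R.comap θ).Normal := ⟨fun z hz g => by
    show θ (g * z * g⁻¹) ∈ R
    rw [map_mul, map_mul, map_inv]
    exact hRn _ ⟨g, rfl⟩ _ hz⟩
  rcases hH _ hn with h | h
  · left
    refine (Subgroup.eq_bot_iff_forall _).2 fun r hr => ?_
    obtain ⟨g, rfl⟩ := hR hr
    exact h (show g ∈ R.comap θ from hr)
  · right
    refine le_antisymm hR ?_
    rw [MonoidHom.range_eq_map, ← h, Subgroup.map_sup, (Subgroup.map_eq_bot_iff _).2 le_rfl, sup_bot_eq,
      Subgroup.map_le_iff_le_comap]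

/-- Images of groups without normal subgroups of odd order. -/
theorem odd_bot_of_ker {H : Type*} [Group H] [Finite H] (θ : H →* X) (hker : ∀ z ∈ θ.ker, z * z = 1 ∧ z ∈ Subgroup.center H)
    (hH : ∀ L : Subgroup H, L.Normal → Odd (Nat.card L) → L = ⊥) {R : Subgroup X}
    (hR : R ≤ θ.range) (hRn : ∀ t ∈ θ.range, ∀ r ∈ R, t * r * t⁻¹ ∈ R) (hodd : Odd (Nat.card R)) :
    R = ⊥ := by
  classical
  set L₀ := R.comap θ with hL₀
  have hn : L₀.Normal := ⟨fun z hz g => by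
    show θ (g * z * g⁻¹) ∈ R
    rw [map_mul, map_mul, map_inv]
    exact hRn _ ⟨g, rfl⟩ _ hz⟩
  obtain ⟨k, hk⟩ := hodd
  -- the elements killed by the order
  set K := θ.ker.subgroupOf L₀ with hK
  have hKn : K.Normal := (MonoidHom.normal_ker θ).comap _
  have hKle : θ.ker ≤ L₀ := fun z hz => by
    show θ z ∈ R
    rw [show θ z = 1 from hz]; exact one_mem _
  have hidx : K.index = Nat.card R := by
    have e : K = (θ.comp L₀.subtype).ker := by ext z; rfl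
    rw [e, Subgroup.index_ker, MonoidHom.range_comp, Subgroup.range_subtype, hL₀,
      Subgroup.map_comap_eq_self hR]
  have hK2 : IsPGroup 2 K := fun z => ⟨1, by
    apply Subtype.ext; apply Subtype.ext
    rw [pow_one, pow_two]
    exact (hker z.1.1 z.2).1⟩
  have hcop : Nat.Coprime (Nat.card K) K.index := by
    obtain ⟨j, hj⟩ := hK2.exists_card_eq
    rw [hj, hidx]
    exact Nat.Coprime.pow_left j (Nat.coprime_two_left.2 ⟨k, hk⟩)
  obtain ⟨Q, hQ⟩ := Subgroup.exists_left_complement'_of_coprime hcop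
  set L := Q.map L₀.subtype with hL
  have hcardL : Nat.card L = Nat.card R := by
    rw [hL, Subgroup.card_map_of_injective L₀.subtype_injective, ← hidx, hQ.index_eq_card]
  have hLiff : ∀ z ∈ L₀, z ^ Nat.card R = 1 → (∀ w ∈ θ.ker, Commute z w) → z ∈ L := by
    intro z hz h1 hcomm
    obtain ⟨⟨l, w⟩, e, -⟩ := Subgroup.IsComplement.existsUnique hQ ⟨z, hz⟩
    have e' : l.1.1 * w.1.1 = z := congrArg Subtype.val e
    have hlL : l.1.1 ∈ L := ⟨l.1, l.2, rfl⟩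
    have hlw : Commute l.1.1 w.1.1 := by
      have h2 : Commute (z * w.1.1⁻¹) w.1.1 := (hcomm _ w.2).mul_left (Commute.refl _).inv_left
      rwa [← e', mul_inv_cancel_right] at h2
    have hl1 : l.1.1 ^ Nat.card R = 1 := by
      rw [← hcardL]
      refine orderOf_dvd_iff_pow_eq_one.1 ?_
      rw [show orderOf l.1.1 = orderOf (⟨l.1.1, hlL⟩ : L) from Subgroup.orderOf_coe (⟨l.1.1, hlL⟩ : L)]
      exact orderOf_dvd_natCard _
    rw [← e', hlw.mul_pow, hl1, one_mul, hk, pow_succ, pow_mul, pow_two, (hker w.1.1 w.2).1, one_pow, one_mul] at h1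
    rw [← e', h1, mul_one]
    exact hlL
  have hLpow : ∀ z ∈ L, z ^ Nat.card R = 1 := fun z hz => by
    rw [← hcardL]
    refine orderOf_dvd_iff_pow_eq_one.1 ?_
    rw [show orderOf z = orderOf (⟨z, hz⟩ : L) from Subgroup.orderOf_coe (⟨z, hz⟩ : L)]
    exact orderOf_dvd_natCard _
  have hLle : L ≤ L₀ := Subgroup.map_subtype_le _
  have hcentral : ∀ w ∈ θ.ker, ∀ g : H, Commute g w := fun w hw g =>
    Subgroup.mem_center_iff.1 (hker w hw).2 g
  have hLn : L.Normal := ⟨fun z hz g => hLiff _ (hn.conj_mem z (hLle hz) g)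
    (by rw [conj_pow, hLpow z hz, mul_one, mul_inv_cancel]) (fun w hw => hcentral w hw _)⟩
  have hbot := hH L hLn (hcardL ▸ ⟨k, hk⟩)
  have : Nat.card R = 1 := by rw [← hcardL, hbot, Subgroup.card_bot]
  exact Subgroup.eq_bot_of_card_eq _ this

end Cfsg.Agent.Lib.Balance
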