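import Mathlib

/-!
Automorphisms of a finite field fixing the fixed field of an automorphism.
-/

set_option autoImplicit false

namespace Cfsg.Agent.Lib.Balance

/-- An automorphism fixing the fixed field is a power. -/
theorem exists_pow_of_fix {F : Type*} [Field F] [Finite F] (σ τ : F ≃+* F)
    (h : ∀ x, σ x = x → τ x = x) : ∃ j : ℕ, τ = σ ^ j := by
  classical
  haveI : Finite (F ≃+* F) :=
    Finite.of_injective (fun e : F ≃+* F => (e : F → F)) DFunLike.coe_injective
  let H : Subgroup (F ≃+* F) := Subgroup.zpowers σ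
  letI : Fintype H := Fintype.ofFinite H
  let L := FixedPoints.subfield H F
  let τ' : F →ₐ[L] F :=
    { τ.toRingHom with
      commutes' := fun a => h (a : F) (a.2 ⟨σ, Subgroup.mem_zpowers σ⟩) }
  obtain ⟨s, hs⟩ := (FixedPoints.toAlgHom_bijective H F).2 τ'
  have e : (s : F ≃+* F) = τ := RingEquiv.ext fun a => AlgHom.congr_fun hs a
  have hmem : τ ∈ Subgroup.zpowers σ := e ▸ s.2
  rw [← mem_powers_iff_mem_zpowers] at hmem
  obtain ⟨j, hj⟩ := hmem
  exact ⟨j, hj.symm⟩

/-- A power of an element of prime order of coprime order is trivial. -/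
theorem eq_one_of_pow {G : Type*} [Group G] {p : ℕ} (hp : p.Prime) {σ τ : G} (hσ : orderOf σ = p) {j : ℕ}
    (hj : τ = σ ^ j) (hc : (orderOf τ).Coprime p) : τ = 1 :=
  orderOf_eq_one_iff.1 (Nat.eq_one_of_dvd_coprimes hc dvd_rfl
    (by rw [hj, ← hσ]; exact orderOf_pow_dvd _))

end Cfsg.Agent.Lib.Balance
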