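import Cfsg.Agent.Lib.Balance.Semilinear
import Cfsg.Agent.Lib.AutPSU.Basic

/-!
Semilinear maps centralising a special unitary group over a subfield are scalar.
-/

set_option autoImplicit false

namespace Cfsg.Agent.Lib.Balance

open Matrix

variable {n : ℕ} {K L : Type*} [Field K] [Field L] [Fintype K] {q0 : ℕ}

/-- The transvection as a matrix. -/
theorem mat_T (hK : Fintype.card K = q0 ^ 2) {v : Fin n → K} (hv : AutPSU.hm q0 v v = 0) {c : K}
    (hc : AutPSU.Skew q0 c) :
    AutPSU.mat (AutPSU.T hK v c) = 1 + vecMulVec v (fun i => c * v i ^ q0) := by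
  refine Matrix.ext_iff_mulVec.2 fun x => ?_
  rw [AutPSU.T_mulVec hK hv hc, add_mulVec, one_mulVec, vecMulVec_mulVec, op_smul_eq_smul]
  congr 2
  simp only [AutPSU.hm, Cfsg.hermForm, dotProduct, Finset.mul_sum]
  exact Finset.sum_congr rfl fun i _ => by ring

/-- A semilinear map normalising the special unitary group trivially. -/
theorem su_scalar (hn : 3 ≤ n) (hK : Fintype.card K = q0 ^ 2) (f : K →+* L) (τ : L ≃+* L)
    (R : GL (Fin n) L)
    (H : ∀ (v : Fin n → K) (c : K), AutPSU.hm q0 v v = 0 → AutPSU.Skew q0 c → ∃ l : L,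
      (R : Matrix (Fin n) (Fin n) L) * ((AutPSU.mat (AutPSU.T hK v c)).map f).map τ =
        l • ((AutPSU.mat (AutPSU.T hK v c)).map f * (R : Matrix (Fin n) (Fin n) L))) :
    (∀ a, τ (f a) = f a) ∧ ∃ z : L, (R : Matrix (Fin n) (Fin n) L) = z • 1 := by
  classical
  have : Nonempty (Fin n) := ⟨⟨0, by omega⟩⟩
  have hq0 : 2 ≤ q0 := by
    have h1 : 1 < Fintype.card K := Fintype.one_lt_card
    rw [hK] at h1
    by_contra h
    interval_cases q0 <;> simp at h1
  obtain ⟨κ, hκ0, hκ⟩ := AutPSU.exists_skew_ne_zero (F := K) hK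
  set Rm := (R : Matrix (Fin n) (Fin n) L) with hRm
  -- isotropic vectors are fixed up to scalars
  have hfix : ∀ v : Fin n → K, AutPSU.hm q0 v v = 0 → ∀ i0, v i0 ≠ 0 →
      ∃ α : L, Rm *ᵥ (fun i => τ (f (v i))) = α • fun i => f (v i) := by
    intro v hv i0 hi0
    set φ : Fin n → K := fun i => κ * v i ^ q0 with hφ
    obtain ⟨l, hl⟩ := H v κ hv hκ
    have hmap : ∀ g : K →+* L, (AutPSU.mat (AutPSU.T hK v κ)).map g =
        1 + vecMulVec (fun i => g (v i)) (fun i => g (φ i)) := fun g => by
      rw [mat_T hK hv hκ]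
      ext i j
      simp [vecMulVec_apply, Matrix.one_apply, hφ, apply_ite g]
    rw [show ((AutPSU.mat (AutPSU.T hK v κ)).map f).map τ =
      (AutPSU.mat (AutPSU.T hK v κ)).map (τ.toRingHom.comp f) from Matrix.map_map, hmap, hmap] at hl
    have hφv : φ ⬝ᵥ v = 0 := by
      have : φ ⬝ᵥ v = κ * AutPSU.hm q0 v v := by
        simp only [hφ, AutPSU.hm, Cfsg.hermForm, dotProduct, Finset.mul_sum]
        exact Finset.sum_congr rfl fun i _ => by ring
      rw [this, hv, mul_zero]
    have hsq : ∀ g : K →+* L, (1 + vecMulVec (fun i => g (v i)) (fun i => g (φ i)) - 1) *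
        (1 + vecMulVec (fun i => g (v i)) (fun i => g (φ i)) - 1) = 0 := fun g => by
      rw [add_sub_cancel_left]
      ext i j
      rw [Matrix.mul_apply, Matrix.zero_apply]
      calc ∑ k, vecMulVec (fun i => g (v i)) (fun i => g (φ i)) i k *
            vecMulVec (fun i => g (v i)) (fun i => g (φ i)) k j = g (v i) * g (φ ⬝ᵥ v) * g (φ j) := by
            rw [dotProduct, map_sum, Finset.mul_sum, Finset.sum_mul]
            exact Finset.sum_congr rfl fun k _ => by simp only [vecMulVec_apply, map_mul, hφ]; ring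
        _ = 0 := by rw [hφv, map_zero, mul_zero, zero_mul]
    have e := commute_of_sq_zero (R := R) (hsq _) (hsq _) hl
    rw [← hRm, mul_add, add_mul, mul_one, one_mul, add_right_inj, Matrix.mul_vecMulVec,
      Matrix.vecMulVec_mul] at e
    have hne : (τ.toRingHom.comp f) (φ i0) ≠ 0 := (map_ne_zero _).2 (mul_ne_zero hκ0 (pow_ne_zero _ hi0))
    refine ⟨((fun i => f (φ i)) ᵥ* Rm) i0 / (τ.toRingHom.comp f) (φ i0), funext fun k => ?_⟩
    have ek := congrFun (congrFun e k) i0
    rw [vecMulVec_apply, vecMulVec_apply] at ek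
    rw [Pi.smul_apply, smul_eq_mul, div_mul_eq_mul_div, eq_div_iff hne, mul_comm _ (f (v k))]
    exact ek
  -- a generator of the norm-one units
  obtain ⟨g, hg⟩ := IsCyclic.exists_generator (α := Kˣ)
  have hordg : orderOf g = q0 ^ 2 - 1 := by
    rw [orderOf_eq_card_of_forall_mem_zpowers hg, Nat.card_units, Nat.card_eq_fintype_card, hK]
  set u : Kˣ := g ^ (q0 - 1) with hu
  have hfac : q0 ^ 2 - 1 = (q0 + 1) * (q0 - 1) := by
    simpa using Nat.sq_sub_sq q0 1
  have hordu : orderOf u = q0 + 1 := by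
    rw [hu, orderOf_pow_of_dvd (by omega) (by rw [hordg, hfac]; exact dvd_mul_left _ _), hordg, hfac,
      Nat.mul_div_cancel _ (by omega)]
  have hun : (u : K) ^ (q0 + 1) = 1 := by
    rw [← Units.val_pow_eq_pow_val, ← hordu, pow_orderOf_eq_one, Units.val_one]
  have hu1 : (u : K) ≠ 1 := fun h => by
    rw [Units.val_eq_one] at h
    rw [h, orderOf_one] at hordu; omega
  obtain ⟨a, ha⟩ : ∃ a : K, a ^ (q0 + 1) = -1 := by
    rcases Nat.even_or_odd q0 with he | ho
    · refine ⟨1, ?_⟩
      rw [one_pow]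
      have h2 : ringChar K = 2 := FiniteField.even_card_iff_char_two.2 (by
        rw [hK, Nat.pow_mod, Nat.even_iff.1 he])
      haveI := ringChar.of_eq h2
      exact (CharTwo.neg_eq 1).symm
    · obtain ⟨k, hk⟩ := ho
      refine ⟨((g ^ k : Kˣ) : K), ?_⟩
      have hsq : ((g : K) ^ (k * (q0 + 1))) * ((g : K) ^ (k * (q0 + 1))) = 1 := by
        rw [← pow_add, show k * (q0 + 1) + k * (q0 + 1) = q0 ^ 2 - 1 by
          rw [hfac, show q0 - 1 = 2 * k by omega]; ring, ← hordg, ← Units.val_pow_eq_pow_val,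
          pow_orderOf_eq_one, Units.val_one]
      rw [Units.val_pow_eq_pow_val, ← pow_mul]
      rcases mul_self_eq_one_iff.1 hsq with h | h
      · exfalso
        rw [← Units.val_pow_eq_pow_val, Units.val_eq_one] at h
        have := Nat.le_of_dvd (Nat.mul_pos (by omega) (by omega)) (orderOf_dvd_of_pow_eq_one h)
        rw [hordg, hfac, show q0 - 1 = 2 * k by omega] at this
        nlinarith
      · exact h
  have ha0 : a ≠ 0 := fun h => by rw [h, zero_pow (by omega)] at ha; exact one_ne_zero (neg_eq_zero.1 ha.symm)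
  -- columns
  have hpair : ∀ i j : Fin n, i ≠ j → ∀ s : K, s ^ (q0 + 1) = -1 → ∃ α : L,
      ∀ k, Rm k i + τ (f s) * Rm k j = α * ((if k = i then 1 else 0) + (if k = j then f s else 0)) := by
    intro i j hij s hs
    obtain ⟨α, hα⟩ := hfix (Pi.single i 1 + Pi.single j s) (by
      simp only [AutPSU.hm, Cfsg.hermForm]
      rw [Finset.sum_eq_add i j hij]
      · simp only [Pi.add_apply, Pi.single_eq_same, Pi.single_eq_of_ne hij, Pi.single_eq_of_ne hij.symm,
          add_zero, zero_add, one_pow, one_mul]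
        rw [← pow_succ', hs, add_neg_cancel]
      · intro c _ hc; simp [hc.1, hc.2]
      · intro h; exact absurd (Finset.mem_univ i) h
      · intro h; exact absurd (Finset.mem_univ j) h) i (by simp [hij])
    refine ⟨α, fun k => ?_⟩
    have e := congrFun hα k
    rw [Matrix.mulVec, dotProduct, Finset.sum_eq_add i j hij] at e
    · simp only [Pi.add_apply, Pi.single_eq_same, Pi.single_eq_of_ne hij, Pi.single_eq_of_ne hij.symm,
        add_zero, zero_add, map_one, mul_one, Pi.smul_apply, smul_eq_mul] at e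
      rw [mul_comm (τ (f s)), e]
      congr 1
      rw [Pi.single_apply, Pi.single_apply, map_add, apply_ite f, apply_ite f, map_zero, map_one]
    · intro c _ hc; simp [hc.1, hc.2]
    · intro h; exact absurd (Finset.mem_univ i) h
    · intro h; exact absurd (Finset.mem_univ j) h
  have hau : ∀ e : ℕ, (a * (u : K) ^ e) ^ (q0 + 1) = -1 := fun e => by
    rw [mul_pow, ← pow_mul, mul_comm e, pow_mul, hun, one_pow, mul_one, ha]
  have hoff : ∀ k j : Fin n, k ≠ j → Rm k j = 0 := by
    intro k j hkj
    obtain ⟨i, hi⟩ : ∃ i, i ∉ ({k, j} : Finset (Fin n)) := by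
      by_contra hh; push Not at hh
      have := (Finset.card_le_card (s := Finset.univ) (fun x _ => hh x)).trans Finset.card_le_two
      rw [Finset.card_univ, Fintype.card_fin] at this; omega
    simp only [Finset.mem_insert, Finset.mem_singleton, not_or] at hi
    obtain ⟨α, h0⟩ := hpair i j hi.2 a ha
    obtain ⟨β, h1⟩ := hpair i j hi.2 (a * (u : K) ^ 1) (hau 1)
    have e0 := h0 k
    have e1 := h1 k
    rw [if_neg (Ne.symm hi.1), if_neg hkj, add_zero, mul_zero] at e0 e1
    have : (τ (f a) - τ (f (a * (u : K) ^ 1))) * Rm k j = 0 := by linear_combination e0 - e1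
    refine (mul_eq_zero.1 this).resolve_left (sub_ne_zero.2 fun h => hu1 ?_)
    have := f.injective (τ.injective h)
    rw [pow_one] at this
    exact (mul_eq_left₀ ha0).1 this.symm
  let o : Fin n := ⟨0, by omega⟩
  have hd0 : ∀ i, Rm i i ≠ 0 := by
    intro i hi
    have h0 : Rm.det = 0 := Matrix.det_eq_zero_of_row_eq_zero i fun b => by
      rcases eq_or_ne i b with rfl | hb
      · exact hi
      · exact hoff i b hb
    rw [hRm, ← GeneralLinearGroup.val_det_apply] at h0
    exact (GeneralLinearGroup.det R).ne_zero h0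
  have hrel : ∀ i j : Fin n, i ≠ j → ∀ s : K, s ^ (q0 + 1) = -1 → τ (f s) * Rm j j = Rm i i * f s := by
    intro i j hij s hs
    obtain ⟨α, h⟩ := hpair i j hij s hs
    have ei := h i
    have ej := h j
    rw [if_pos rfl, if_neg hij, hoff i j hij, mul_zero, add_zero, add_zero, mul_one] at ei
    rw [if_pos rfl, if_neg hij.symm, hoff j i hij.symm, zero_add, zero_add] at ej
    rw [ej, ei]
  obtain ⟨j0, hj0⟩ := Fintype.exists_ne_of_one_lt_card (by rw [Fintype.card_fin]; omega) o
  have huE : ∀ e : ℕ, τ (f ((u : K) ^ e)) = f ((u : K) ^ e) := fun e => by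
    have e1 := hrel o j0 hj0.symm _ (hau e)
    rw [map_mul, map_mul] at e1
    have h2 : (τ (f ((u : K) ^ e)) - f ((u : K) ^ e)) * (Rm o o * f a) = 0 := by
      linear_combination e1 - τ (f ((u : K) ^ e)) * hrel o j0 hj0.symm a ha
    exact sub_eq_zero.1 ((mul_eq_zero.1 h2).resolve_right (mul_ne_zero (hd0 o) ((map_ne_zero f).2 ha0)))
  -- the fixed subfield is everything
  let E := RingHom.eqLocusField (τ.toRingHom.comp f) f
  have hall : ∀ x : K, x ∈ E := by
    by_contra hne
    push Not at hne
    haveI : Fintype E := Fintype.ofFinite E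
    have hcard : q0 + 1 < Nat.card E := by
      have hzero : (0 : K) ∈ E := zero_mem E
      let emb : Option (Fin (q0 + 1)) → E := fun o => o.elim ⟨0, hzero⟩ fun i => ⟨(u : K) ^ (i : ℕ), huE _⟩
      have hinj : Function.Injective emb := by
        rintro (_ | i) (_ | j) h
        · rfl
        · exact absurd (congrArg Subtype.val h).symm (pow_ne_zero _ u.ne_zero)
        · exact absurd (congrArg Subtype.val h) (pow_ne_zero _ u.ne_zero)
        · have h' : u ^ (i : ℕ) = u ^ (j : ℕ) := Units.ext (by
            simpa [emb, Units.val_pow_eq_pow_val] using congrArg Subtype.val h)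
          rw [pow_eq_pow_iff_modEq, hordu] at h'
          exact congrArg some (Fin.ext (Nat.ModEq.eq_of_lt_of_lt h' i.2 j.2))
      have := Nat.card_le_card_of_injective emb hinj
      simp only [Nat.card_eq_fintype_card, Fintype.card_option, Fintype.card_fin] at this
      rw [Nat.card_eq_fintype_card]; omega
    have hpow := Module.card_eq_pow_finrank (K := E) (V := K)
    rw [hK, ← Nat.card_eq_fintype_card] at hpow
    obtain ⟨x, hx⟩ := hne
    have hd : 2 ≤ Module.finrank E K := by
      by_contra hlt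
      have hpos : 0 < Module.finrank E K := Module.finrank_pos
      have h1 : Module.finrank E K = 1 := by omega
      rw [h1, pow_one] at hpow
      have hEu : Nat.card E = Nat.card K := by rw [← hpow, Nat.card_eq_fintype_card (α := K), hK]
      have hsurj : Function.Surjective (Subtype.val : E → K) :=
        ((Nat.bijective_iff_injective_and_card _).2 ⟨Subtype.val_injective, hEu⟩).2
      obtain ⟨⟨y, hy⟩, rfl⟩ := hsurj x
      exact hx hy
    have := Nat.pow_le_pow_right (show 1 ≤ Nat.card E from Nat.card_pos) hd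
    have h3 : (q0 + 1) ^ 2 < Nat.card E ^ 2 := Nat.pow_lt_pow_left hcard (by norm_num)
    have h4 : q0 ^ 2 < (q0 + 1) ^ 2 := Nat.pow_lt_pow_left (Nat.lt_succ_self _) (by norm_num)
    omega
  refine ⟨hall, Rm o o, Matrix.ext fun k j => ?_⟩
  rw [Matrix.smul_apply, Matrix.one_apply, smul_eq_mul]
  rcases eq_or_ne k j with rfl | hkj
  · rw [if_pos rfl, mul_one]
    rcases eq_or_ne k o with rfl | hko
    · rfl
    · have e := hrel k o hko a ha
      rw [show τ (f a) = f a from hall a, mul_comm (f a)] at e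
      exact (mul_right_cancel₀ ((map_ne_zero f).2 ha0) e).symm
  · rw [if_neg hkj, mul_zero]; exact hoff k j hkj

end Cfsg.Agent.Lib.Balance
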