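import Cfsg.Agent.Lib.Balance.OddOrth

/-!
Semilinear maps centralising an orthogonal, symplectic or unitary group over a subfield are scalar.
-/

set_option autoImplicit false

namespace Cfsg.Agent.Lib.Balance

open Matrix

variable {ι : Type*} [Fintype ι] [DecidableEq ι] {K L : Type*} [Field K] [Field L]

/-- Matrices with square-zero displacement that differ by a scalar differ trivially. -/
theorem eq_one_of_sq_zero [Nonempty ι] {A B : Matrix ι ι L} {l : L} (hA : (A - 1) * (A - 1) = 0)
    (hB : (B - 1) * (B - 1) = 0) (h : B = l • A) : l = 1 := by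
  by_contra hl
  have e : B - 1 = l • (A - 1) + (l - 1) • 1 := by rw [h, smul_sub, sub_smul, one_smul]; abel
  rw [e] at hB
  simp only [add_mul, mul_add, Matrix.smul_mul, Matrix.mul_smul, hA, smul_zero, one_mul, mul_one,
    zero_add] at hB
  have h1 := congrArg ((A - 1) * ·) hB
  simp only [mul_add, Matrix.mul_smul, hA, smul_zero, zero_add, mul_zero, mul_one] at h1
  have h2 : A - 1 = 0 := by
    rw [smul_smul] at h1
    exact (smul_eq_zero.1 h1).resolve_left (mul_ne_zero (sub_ne_zero.2 hl) (sub_ne_zero.2 hl))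
  simp only [h2, smul_zero, zero_add, add_zero, smul_smul] at hB
  exact one_ne_zero ((smul_eq_zero.1 hB).resolve_left (mul_ne_zero (sub_ne_zero.2 hl) (sub_ne_zero.2 hl)))

/-- Semilinear commutation with unipotent elements is exact. -/
theorem commute_of_sq_zero [Nonempty ι] {R : GL ι L} {A B : Matrix ι ι L} {l : L}
    (hA : (A - 1) * (A - 1) = 0) (hB : (B - 1) * (B - 1) = 0)
    (h : (R : Matrix ι ι L) * B = l • (A * (R : Matrix ι ι L))) :
    (R : Matrix ι ι L) * B = A * (R : Matrix ι ι L) := by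
  have hR : ((R⁻¹ : GL ι L) : Matrix ι ι L) * (R : Matrix ι ι L) = 1 := by
    rw [← Units.val_mul, inv_mul_cancel, Units.val_one]
  have hR' : (R : Matrix ι ι L) * ((R⁻¹ : GL ι L) : Matrix ι ι L) = 1 := by
    rw [← Units.val_mul, mul_inv_cancel, Units.val_one]
  set C := ((R⁻¹ : GL ι L) : Matrix ι ι L) * A * (R : Matrix ι ι L) with hC
  have e : B = l • C := by
    calc B = ((R⁻¹ : GL ι L) : Matrix ι ι L) * ((R : Matrix ι ι L) * B) := by rw [← mul_assoc, hR, one_mul]
      _ = l • C := by rw [h, Matrix.mul_smul, hC, mul_assoc]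
  have hC2 : (C - 1) * (C - 1) = 0 := by
    have e1 : C - 1 = ((R⁻¹ : GL ι L) : Matrix ι ι L) * (A - 1) * (R : Matrix ι ι L) := by
      rw [hC, mul_sub, mul_one, sub_mul, hR]
    rw [e1, show ∀ X Y Z : Matrix ι ι L, X * Y * Z * (X * Y * Z) = X * (Y * (Z * X) * Y) * Z by
      intros; simp only [mul_assoc], hR', mul_one, hA, mul_zero, zero_mul]
  rw [h, eq_one_of_sq_zero hC2 hB e, one_smul]

/-- Involutions allow passing to the square of a semilinear map. -/
theorem square_commute [Nonempty ι] (τ : L ≃+* L) (R : GL ι L) {A : Matrix ι ι L} {l : L}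
    (hA : A * A = 1) (h : (R : Matrix ι ι L) * A.map τ = l • (A * (R : Matrix ι ι L))) :
    (R : Matrix ι ι L) * (R : Matrix ι ι L).map τ * (A.map τ).map τ =
      A * ((R : Matrix ι ι L) * (R : Matrix ι ι L).map τ) := by
  have hl : l * l = 1 := by
    have e1 : (R : Matrix ι ι L) * A.map τ * A.map τ = (R : Matrix ι ι L) := by
      rw [mul_assoc, ← Matrix.map_mul, hA, Matrix.map_one _ (map_zero τ) (map_one τ), mul_one]
    rw [h, Matrix.smul_mul, mul_assoc, h, Matrix.mul_smul, smul_smul, ← mul_assoc, hA, one_mul] at e1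
    by_contra hne
    refine R.ne_zero ((smul_eq_zero.1 (show (l * l - 1) • (R : Matrix ι ι L) = 0 by
      rw [sub_smul, e1, one_smul, sub_self])).resolve_left (sub_ne_zero.2 hne))
  have hτl : τ l * l = 1 := by
    rcases mul_self_eq_one_iff.1 hl with rfl | rfl <;> simp
  rw [mul_assoc, ← Matrix.map_mul, h, Matrix.map_smul' τ _ _ (map_mul τ), Matrix.map_mul, Matrix.mul_smul,
    ← mul_assoc, h, Matrix.smul_mul, smul_smul, hτl, one_smul, mul_assoc]

variable {d : ι → K}

theorem mul_sign_apply (hd : ∀ i, d i ≠ 0) (h2 : (2 : K) ≠ 0) (g : GL ι K) (k a b : ι) :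
    ((g * rfx d (Pi.single k 1) : GL ι K) : Matrix ι ι K) a b =
      (g : Matrix ι ι K) a b * (if b = k then -1 else 1) := by
  rw [Units.val_mul, Matrix.mul_apply, Finset.sum_eq_single b, rfx_single_apply hd h2, if_pos rfl]
  · intro c _ hc; rw [rfx_single_apply hd h2, if_neg hc, mul_zero]
  · intro h; exact absurd (Finset.mem_univ b) h

theorem bd_single_right (i : ι) (v : ι → K) : bd d v (Pi.single i 1) = d i * v i := by
  rw [bd_comm, bd_single]

theorem bd_smul_left (c : K) (x y : ι → K) : bd d (c • x) y = c * bd d x y := by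
  simp only [bd, Pi.smul_apply, smul_eq_mul, Finset.mul_sum]
  exact Finset.sum_congr rfl fun a _ => by ring

/-- A semilinear map normalising a special orthogonal group trivially. -/
theorem orth_scalar [Finite K] (hd : ∀ i, d i ≠ 0) (h2 : (2 : K) ≠ 0) (hn : 3 ≤ Fintype.card ι)
    (f : K →+* L) (τ : L ≃+* L) (R : GL ι L)
    (H : ∀ h ∈ orthD d, (h : Matrix ι ι K).det = 1 → ∃ l : L,
      (R : Matrix ι ι L) * ((h : Matrix ι ι K).map f).map τ =
        l • ((h : Matrix ι ι K).map f * (R : Matrix ι ι L))) :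
    (∀ a, τ (τ (f a)) = f a) ∧
      ∃ z : L, (R : Matrix ι ι L) * (R : Matrix ι ι L).map τ = z • 1 := by
  classical
  haveI : Nonempty ι := Fintype.card_pos_iff.1 (by omega)
  obtain ⟨i₀⟩ := ‹Nonempty ι›
  set W := (R : Matrix ι ι L) * (R : Matrix ι ι L).map τ with hW
  have hf2 : (2 : L) ≠ 0 := fun h => h2 (f.injective (by rw [map_ofNat, h, map_zero]))
  -- products of two commuting reflections
  have hC : ∀ h ∈ orthD d, (h : Matrix ι ι K).det = 1 → h * h = 1 → ∀ a b,
      (W * (((h : Matrix ι ι K).map f).map τ).map τ) a b = ((h : Matrix ι ι K).map f * W) a b := by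
    intro h hh hh1 hh2 a b
    obtain ⟨l, hl⟩ := H h hh hh1
    rw [hW, square_commute τ R ?_ hl]
    rw [← Matrix.map_mul, ← Units.val_mul, hh2, Units.val_one, Matrix.map_one _ (map_zero f) (map_one f)]
  have hpair : ∀ x y : ι → K, bd d x x ≠ 0 → bd d y y ≠ 0 → bd d x y = 0 → ∀ a b,
      (W * (((((rfx d x * rfx d y : GL ι K)) : Matrix ι ι K).map f).map τ).map τ) a b =
        ((((rfx d x * rfx d y : GL ι K)) : Matrix ι ι K).map f * W) a b := by
    intro x y hx hy hxy a b
    refine hC _ (mul_mem (rfx_mem hx) (rfx_mem hy)) ?_ ?_ a b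
    · rw [Units.val_mul, det_mul, rfx_det hx, rfx_det hy]; ring
    · rw [mul_assoc, ← mul_assoc (rfx d y), ← rfx_commute hx hy hxy, mul_assoc (rfx d x), rfx_sq hy, mul_one,
        rfx_sq hx]
  have hsingle : ∀ i k : ι, i ≠ k → bd d (Pi.single i 1) (Pi.single k (1 : K)) = 0 := fun i k hik => by
    rw [bd_single, Pi.single_eq_of_ne hik, mul_zero]
  -- diagonal
  have hdiag : ∀ a b, a ≠ b → W a b = 0 := by
    intro a b hab
    obtain ⟨k, hk⟩ : ∃ k, k ∉ ({a, b} : Finset ι) := by
      by_contra hh; push Not at hh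
      have := (Finset.card_le_card (s := Finset.univ) (fun x _ => hh x)).trans Finset.card_le_two
      rw [Finset.card_univ] at this; omega
    simp only [Finset.mem_insert, Finset.mem_singleton, not_or] at hk
    have e := hpair _ _ (bd_single_ne hd a) (bd_single_ne hd k) (hsingle a k (Ne.symm hk.1)) a b
    set g := rfx d (Pi.single a (1 : K)) * rfx d (Pi.single k (1 : K)) with hg
    have hga : ∀ c c', (g : Matrix ι ι K) c c' =
        (if c = c' then (if c = a then -1 else 1) else 0) * (if c' = k then -1 else 1) := fun c c' => by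
      rw [hg, mul_sign_apply hd h2, rfx_single_apply hd h2]
    rw [Matrix.mul_apply, Matrix.mul_apply, Finset.sum_eq_single b, Finset.sum_eq_single a] at e
    · simp [hga, Ne.symm hab, Ne.symm hk.1, Ne.symm hk.2] at e
      exact (mul_eq_zero.1 (show (2 : L) * W a b = 0 by linear_combination e)).resolve_left hf2
    · intro c _ hc; simp [hga, Ne.symm hc]
    · intro h; exact absurd (Finset.mem_univ a) h
    · intro c _ hc; simp [hga, hc]
    · intro h; exact absurd (Finset.mem_univ b) h
  have hWc : ∀ a, W a a ≠ 0 := by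
    intro a ha
    have h0 : W.det = 0 := Matrix.det_eq_zero_of_row_eq_zero a fun b => by
      rcases eq_or_ne a b with rfl | hab
      · exact ha
      · exact hdiag a b hab
    rw [hW, det_mul, ← RingEquiv.coe_toRingHom, ← RingHom.mapMatrix_apply, ← RingHom.map_det] at h0
    have hR : (R : Matrix ι ι L).det ≠ 0 := by
      rw [← GeneralLinearGroup.val_det_apply]; exact (GeneralLinearGroup.det R).ne_zero
    exact mul_ne_zero hR ((map_ne_zero _).2 hR) h0
  have hent : ∀ x y : ι → K, bd d x x ≠ 0 → bd d y y ≠ 0 → bd d x y = 0 → ∀ a b,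
      W a a * τ (τ (f (((rfx d x * rfx d y : GL ι K) : Matrix ι ι K) a b))) =
        f (((rfx d x * rfx d y : GL ι K) : Matrix ι ι K) a b) * W b b := by
    intro x y hx hy hxy a b
    have e := hpair x y hx hy hxy a b
    rw [Matrix.mul_apply, Matrix.mul_apply, Finset.sum_eq_single a, Finset.sum_eq_single b] at e
    · exact e
    · intro c _ hc; rw [hdiag c b hc, mul_zero]
    · intro h; exact absurd (Finset.mem_univ b) h
    · intro c _ hc; rw [hdiag a c (Ne.symm hc), zero_mul]
    · intro h; exact absurd (Finset.mem_univ a) h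
  -- the fixed field
  set ρ : K →+* L := (τ.toRingHom.comp τ.toRingHom).comp f with hρ
  have hρa : ∀ a, ρ a = τ (τ (f a)) := fun _ => rfl
  let E := RingHom.eqLocusField ρ f
  -- entries of reflections in vectors with two nonzero coordinates
  set v : ι → ι → K → (ι → K) := fun i j s => Pi.single i 1 + s • Pi.single j 1 with hv
  have hvQ : ∀ i j s, i ≠ j → bd d (v i j s) (v i j s) = d i + d j * s ^ 2 := fun i j s hij => by
    simp only [hv, bd_add_left, bd_smul_left, bd_single, Pi.add_apply, Pi.smul_apply, smul_eq_mul,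
      Pi.single_eq_same, Pi.single_eq_of_ne hij, Pi.single_eq_of_ne (Ne.symm hij)]
    ring
  have hvk : ∀ i j k s, k ≠ i → k ≠ j → bd d (v i j s) (Pi.single k 1) = 0 := fun i j k s hi hj => by
    simp [hv, bd_single_right, Pi.single_eq_of_ne hi, Pi.single_eq_of_ne hj]
  have hc : ∀ i j, i ≠ j → ∀ s, d j * s ^ 2 / d i ∈ E := by
    intro i j hij s
    obtain ⟨k, hk⟩ : ∃ k, k ∉ ({i, j} : Finset ι) := by
      by_contra hh; push Not at hh
      have := (Finset.card_le_card (s := Finset.univ) (fun x _ => hh x)).trans Finset.card_le_two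
      rw [Finset.card_univ] at this; omega
    simp only [Finset.mem_insert, Finset.mem_singleton, not_or] at hk
    rcases eq_or_ne (d i + d j * s ^ 2) 0 with hQ | hQ
    · rw [show d j * s ^ 2 / d i = -1 by rw [div_eq_iff (hd i)]; linear_combination hQ]
      exact neg_mem (one_mem E)
    have hQ' : bd d (v i j s) (v i j s) ≠ 0 := by rwa [hvQ i j s hij]
    have e := hent _ _ hQ' (bd_single_ne hd k) (hvk i j k s hk.1 hk.2) i i
    rw [mul_comm (f _)] at e
    have e' := mul_left_cancel₀ (hWc i) e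
    have hmem : ((rfx d (v i j s) * rfx d (Pi.single k 1) : GL ι K) : Matrix ι ι K) i i ∈ E := e'
    rw [mul_sign_apply hd h2, if_neg (Ne.symm hk.1), mul_one, rfx_val hQ', reflM_apply, if_pos rfl,
      hvQ i j s hij] at hmem
    have hvi : v i j s i = 1 := by simp [hv, Pi.single_eq_of_ne hij]
    rw [hvi] at hmem
    have h2E : (2 : K) ∈ E := by
      rw [← one_add_one_eq_two]; exact add_mem (one_mem E) (one_mem E)
    have hu : d i / (d i + d j * s ^ 2) ∈ E := by
      have := div_mem (sub_mem (one_mem E) hmem) h2E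
      convert this using 1
      field_simp
      ring
    have := sub_mem (inv_mem hu) (one_mem E)
    convert this using 1
    field_simp [hd i]
    ring
  obtain ⟨j₀, hj₀⟩ := Fintype.exists_ne_of_one_lt_card (by omega) i₀
  have hsq : ∀ s : K, s ^ 2 ∈ E := fun s => by
    have := div_mem (hc i₀ j₀ hj₀.symm s) (hc i₀ j₀ hj₀.symm 1)
    convert this using 1
    field_simp [hd i₀, hd j₀]
  have hall : ∀ s : K, s ∈ E := fun s => by
    have h2E : (2 : K) ∈ E := by
      rw [← one_add_one_eq_two]; exact add_mem (one_mem E) (one_mem E)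
    have := div_mem (sub_mem (sub_mem (hsq (s + 1)) (hsq s)) (one_mem E)) h2E
    convert this using 1
    field_simp
    ring
  have hfix : ∀ a, τ (τ (f a)) = f a := hall
  -- equal diagonal entries
  have hconn : ∀ x y : ι → K, bd d x x ≠ 0 → bd d y y ≠ 0 → bd d x y = 0 → ∀ a b,
      ((rfx d x * rfx d y : GL ι K) : Matrix ι ι K) a b ≠ 0 → W a a = W b b := by
    intro x y hx hy hxy a b hne
    have e := hent x y hx hy hxy a b
    rw [hfix, mul_comm (f _)] at e
    exact mul_right_cancel₀ ((map_ne_zero f).2 hne) e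
  have hgood : ∀ i j, i ≠ j → d i + d j ≠ 0 → W i i = W j j := by
    intro i j hij hQ
    obtain ⟨k, hk⟩ : ∃ k, k ∉ ({i, j} : Finset ι) := by
      by_contra hh; push Not at hh
      have := (Finset.card_le_card (s := Finset.univ) (fun x _ => hh x)).trans Finset.card_le_two
      rw [Finset.card_univ] at this; omega
    simp only [Finset.mem_insert, Finset.mem_singleton, not_or] at hk
    have hQ' : bd d (v i j 1) (v i j 1) ≠ 0 := by rwa [hvQ i j 1 hij, one_pow, mul_one]
    refine hconn _ _ hQ' (bd_single_ne hd k) (hvk i j k 1 hk.1 hk.2) i j ?_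
    rw [mul_sign_apply hd h2, if_neg (Ne.symm hk.2), mul_one, rfx_val hQ', reflM_apply, if_neg hij, zero_sub]
    have hv1 : v i j 1 i = 1 ∧ v i j 1 j = 1 := by simp [hv, hij, Ne.symm hij]
    rw [hv1.1, hv1.2, one_mul, mul_one]
    exact neg_ne_zero.2 (mul_ne_zero (div_ne_zero h2 hQ') (hd j))
  have htri : ∀ i j k : ι, i ≠ j → i ≠ k → j ≠ k → d i + d j = 0 → d i + d k = 0 → W i i = W j j := by
    intro i j k hij hik hjk h1 h3
    have hdjk : d j = d k := by linear_combination h1 - h3
    set x : ι → K := Pi.single i 1 + (Pi.single j 1 + Pi.single k 1) with hx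
    set y : ι → K := Pi.single j 1 + (-1 : K) • Pi.single k 1 with hy
    have hxx : bd d x x = d k := by
      simp [hx, bd_add_left, bd_single, hij, hik, hjk, hij.symm, hik.symm, hjk.symm]
      linear_combination h1
    have hyy : bd d y y = 2 * d k := by
      simp only [hy, bd_add_left, bd_smul_left, bd_single, Pi.add_apply, Pi.smul_apply, smul_eq_mul,
        Pi.single_eq_same, Pi.single_eq_of_ne hjk, Pi.single_eq_of_ne hjk.symm]
      linear_combination hdjk
    have hxy : bd d x y = 0 := by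
      simp [hx, hy, bd_add_left, bd_smul_left, bd_single, hij, hik, hjk, hij.symm, hik.symm, hjk.symm]
      linear_combination hdjk
    have hxx' : bd d x x ≠ 0 := by rw [hxx]; exact hd k
    have hyy' : bd d y y ≠ 0 := by rw [hyy]; exact mul_ne_zero h2 (hd k)
    refine hconn x y hxx' hyy' hxy i j ?_
    rw [Units.val_mul, Matrix.mul_apply, Finset.sum_eq_single k]
    · rw [rfx_val hxx', rfx_val hyy', reflM_apply, reflM_apply, if_neg hik, if_neg hjk.symm, hxx, hyy]
      simp [hx, hy, hij, hik, hjk, hij.symm, hik.symm, hjk.symm]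
      field_simp [hd k, h2]
      simp [h2, hd]
    · intro c _ hck
      rw [rfx_val hyy', reflM_apply, hyy]
      rcases eq_or_ne c j with rfl | hcj
      · simp [hy, hjk, hck]
        right
        field_simp [hd k, h2]
        linear_combination -hdjk
      · simp [hy, hck, hcj]
    · intro h; exact absurd (Finset.mem_univ k) h
  have heq : ∀ i j, W i i = W j j := by
    intro i j
    rcases eq_or_ne i j with rfl | hij
    · rfl
    by_cases hg : d i + d j = 0
    swap
    · exact hgood i j hij hg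
    obtain ⟨k, hk⟩ : ∃ k, k ∉ ({i, j} : Finset ι) := by
      by_contra hh; push Not at hh
      have := (Finset.card_le_card (s := Finset.univ) (fun x _ => hh x)).trans Finset.card_le_two
      rw [Finset.card_univ] at this; omega
    simp only [Finset.mem_insert, Finset.mem_singleton, not_or] at hk
    by_cases hik : d i + d k = 0
    · exact htri i j k hij (Ne.symm hk.1) (Ne.symm hk.2) hg hik
    by_cases hjk : d j + d k = 0
    · exact (htri j i k hij.symm (Ne.symm hk.2) (Ne.symm hk.1) (by linear_combination hg) hjk).symm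
    exact (hgood i k (Ne.symm hk.1) hik).trans (hgood j k (Ne.symm hk.2) hjk).symm
  refine ⟨hfix, W i₀ i₀, Matrix.ext fun a b => ?_⟩
  rw [Matrix.smul_apply, Matrix.one_apply, smul_eq_mul]
  rcases eq_or_ne a b with rfl | hab
  · rw [if_pos rfl, mul_one]; exact heq a i₀
  · rw [if_neg hab, mul_zero]; exact hdiag a b hab

/-- The upper unipotent symplectic elements. -/
def upM {m : ℕ} (S : Matrix (Fin m) (Fin m) K) : Matrix (Fin m ⊕ Fin m) (Fin m ⊕ Fin m) K :=
  fromBlocks 1 S 0 1

/-- The lower unipotent symplectic elements. -/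
def loM {m : ℕ} (S : Matrix (Fin m) (Fin m) K) : Matrix (Fin m ⊕ Fin m) (Fin m ⊕ Fin m) K :=
  fromBlocks 1 0 S 1

theorem upM_mem {m : ℕ} {S : Matrix (Fin m) (Fin m) K} (hS : Sᵀ = S) :
    (upM S)ᵀ * Matrix.J (Fin m) K * upM S = Matrix.J (Fin m) K ∧ (upM S).det = 1 := by
  refine ⟨?_, ?_⟩
  · simp [upM, Matrix.J, fromBlocks_transpose, fromBlocks_multiply, hS]
  · rw [upM, det_fromBlocks_zero₂₁, det_one, one_mul]

theorem loM_mem {m : ℕ} {S : Matrix (Fin m) (Fin m) K} (hS : Sᵀ = S) :
    (loM S)ᵀ * Matrix.J (Fin m) K * loM S = Matrix.J (Fin m) K ∧ (loM S).det = 1 := by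
  refine ⟨?_, ?_⟩
  · simp [loM, Matrix.J, fromBlocks_transpose, fromBlocks_multiply, hS]
  · rw [loM, det_fromBlocks_zero₁₂, det_one, one_mul]

/-- A semilinear map normalising the symplectic group trivially. -/
theorem symp_scalar {m : ℕ} (hm : 1 ≤ m) (f : K →+* L) (τ : L ≃+* L)
    (R : GL (Fin m ⊕ Fin m) L)
    (H : ∀ S : Matrix (Fin m) (Fin m) K, Sᵀ = S → ∀ M ∈ [upM S, loM S], ∃ l : L,
      (R : Matrix _ _ L) * (M.map f).map τ = l • (M.map f * (R : Matrix _ _ L))) :
    (∀ a, τ (f a) = f a) ∧ ∃ z : L, (R : Matrix (Fin m ⊕ Fin m) (Fin m ⊕ Fin m) L) = z • 1 := by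
  classical
  have : Nonempty (Fin m) := ⟨⟨0, hm⟩⟩
  have : Nonempty (Fin m ⊕ Fin m) := ⟨Sum.inl ⟨0, hm⟩⟩
  have hmap0 : ∀ (g : K →+* L) (S : Matrix (Fin m) (Fin m) K),
      (upM S).map g = fromBlocks 1 (S.map g) 0 1 ∧ (loM S).map g = fromBlocks 1 0 (S.map g) 1 := fun g S => by
    constructor <;>
    simp [upM, loM, fromBlocks_map]
  have hmap1 : ∀ (S : Matrix (Fin m) (Fin m) K),
      ((upM S).map f).map τ = fromBlocks 1 ((S.map f).map τ) 0 1 ∧
        ((loM S).map f).map τ = fromBlocks 1 0 ((S.map f).map τ) 1 := fun S => by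
    constructor <;>
    simp [(hmap0 f S).1, (hmap0 f S).2, fromBlocks_map]
  have hsq : ∀ X : Matrix (Fin m) (Fin m) L,
      ((fromBlocks 1 X 0 1 : Matrix (Fin m ⊕ Fin m) (Fin m ⊕ Fin m) L) - 1) * (fromBlocks 1 X 0 1 - 1) = 0 ∧
      ((fromBlocks 1 0 X 1 : Matrix (Fin m ⊕ Fin m) (Fin m ⊕ Fin m) L) - 1) * (fromBlocks 1 0 X 1 - 1) = 0 := by
    intro X
    constructor <;>
    simp [← fromBlocks_one, sub_eq_add_neg, fromBlocks_neg, fromBlocks_add, fromBlocks_multiply]
  have hup : ∀ S : Matrix (Fin m) (Fin m) K, Sᵀ = S → (R : Matrix (Fin m ⊕ Fin m) (Fin m ⊕ Fin m) L) * fromBlocks 1 ((S.map f).map τ) 0 1 =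
      fromBlocks 1 (S.map f) 0 1 * (R : Matrix (Fin m ⊕ Fin m) (Fin m ⊕ Fin m) L) := by
    intro S hS
    obtain ⟨l, hl⟩ := H S hS (upM S) List.mem_cons_self
    rw [(hmap1 S).1, (hmap0 f S).1] at hl
    exact commute_of_sq_zero (R := R) (hsq _).1 (hsq _).1 hl
  have hlo : ∀ S : Matrix (Fin m) (Fin m) K, Sᵀ = S → (R : Matrix (Fin m ⊕ Fin m) (Fin m ⊕ Fin m) L) * fromBlocks 1 0 ((S.map f).map τ) 1 =
      fromBlocks 1 0 (S.map f) 1 * (R : Matrix (Fin m ⊕ Fin m) (Fin m ⊕ Fin m) L) := by
    intro S hS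
    obtain ⟨l, hl⟩ := H S hS (loM S) (by simp)
    rw [(hmap1 S).2, (hmap0 f S).2] at hl
    exact commute_of_sq_zero (hsq _).2 (hsq _).2 hl
  obtain ⟨A, B, C, D, hR⟩ : ∃ A B C D, (R : Matrix (Fin m ⊕ Fin m) (Fin m ⊕ Fin m) L) = fromBlocks A B C D :=
    ⟨_, _, _, _, (fromBlocks_toBlocks _).symm⟩
  rw [hR] at hup hlo ⊢
  have h1 := hup 1 (transpose_one)
  have h1' := hlo 1 (transpose_one)
  simp [fromBlocks_multiply, Matrix.map_one] at h1 h1'
  obtain ⟨hC, hAD, -⟩ := h1
  obtain ⟨hB, -⟩ := h1'
  have hDA : D = A := by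
    rw [hC, add_comm] at *
    simpa using hAD.symm
  have hS : ∀ S : Matrix (Fin m) (Fin m) K, Sᵀ = S → A * (S.map f).map τ = S.map f * A := fun S hs => by
    have := hup S hs
    rw [hB, hC, hDA] at this
    simp [fromBlocks_multiply] at this
    exact this
  have hdiag : ∀ a b, a ≠ b → A a b = 0 := by
    intro a b hab
    have := congrFun (congrFun (hS (Matrix.single b b 1) (by simp [transpose_single])) a) b
    simp [Matrix.mul_apply, Matrix.single_apply, hab, Ne.symm hab] at this
    exact this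
  have hAne : ∀ a, A a a ≠ 0 := by
    intro a ha
    have h0 : A.det = 0 := Matrix.det_eq_zero_of_row_eq_zero a fun b => by
      rcases eq_or_ne a b with rfl | hab
      · exact ha
      · exact hdiag a b hab
    have hdet : (R : Matrix (Fin m ⊕ Fin m) (Fin m ⊕ Fin m) L).det ≠ 0 := by
      rw [← GeneralLinearGroup.val_det_apply]; exact (GeneralLinearGroup.det R).ne_zero
    rw [hR, hC, det_fromBlocks_zero₂₁, h0, zero_mul] at hdet
    exact hdet rfl
  have hent : ∀ S : Matrix (Fin m) (Fin m) K, Sᵀ = S → ∀ a b, A a a * τ (f (S a b)) = f (S a b) * A b b := by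
    intro S hs a b
    have e := congrFun (congrFun (hS S hs) a) b
    rw [Matrix.mul_apply, Matrix.mul_apply, Finset.sum_eq_single a, Finset.sum_eq_single b] at e
    · exact e
    · intro c _ hc; rw [hdiag c b hc, mul_zero]
    · intro h; exact absurd (Finset.mem_univ b) h
    · intro c _ hc; rw [hdiag a c (Ne.symm hc), zero_mul]
    · intro h; exact absurd (Finset.mem_univ a) h
  let o : Fin m := ⟨0, hm⟩
  have hfix : ∀ s, τ (f s) = f s := fun s => by
    have e := hent (Matrix.single o o s) (by simp [transpose_single]) o o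
    rw [Matrix.single_apply, if_pos ⟨rfl, rfl⟩, mul_comm (f s)] at e
    exact mul_left_cancel₀ (hAne o) e
  have heq : ∀ a, A a a = A o o := fun a => by
    rcases eq_or_ne a o with rfl | hao
    · rfl
    have e := hent (Matrix.single a o 1 + Matrix.single o a 1)
      (by simp [transpose_single, add_comm]) a o
    simp [Matrix.single_apply, hao, Ne.symm hao] at e
    exact e
  refine ⟨hfix, A o o, ?_⟩
  rw [hB, hC, hDA, ← fromBlocks_one, fromBlocks_smul, smul_zero]
  have hA : A = A o o • (1 : Matrix (Fin m) (Fin m) L) := Matrix.ext fun a b => by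
    rw [Matrix.smul_apply, Matrix.one_apply, smul_eq_mul]
    rcases eq_or_ne a b with rfl | hab
    · rw [if_pos rfl, mul_one]; exact heq a
    · rw [if_neg hab, mul_zero]; exact hdiag a b hab
  rw [← hA]

end Cfsg.Agent.Lib.Balance
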