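import Mathlib

/-!
Diagonal orthogonal groups over finite fields of odd characteristic: no nontrivial subgroup of odd
order is normal, and only scalars centralise the special orthogonal group semilinearly.
-/

set_option autoImplicit false

namespace Cfsg.Agent.Lib.Balance

open Matrix

variable {ι : Type*} [Fintype ι] [DecidableEq ι] {K : Type*} [Field K]

/-- The orthogonal group of a diagonal form. -/
def orthD (d : ι → K) : Subgroup (GL ι K) where
  carrier := {g | (g : Matrix ι ι K)ᵀ * diagonal d * (g : Matrix ι ι K) = diagonal d}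
  one_mem' := by simp
  mul_mem' := by
    intro g h hg hh
    show ((g * h : GL ι K) : Matrix ι ι K)ᵀ * diagonal d * ((g * h : GL ι K) : Matrix ι ι K) = diagonal d
    rw [Units.val_mul, transpose_mul,
      show (h : Matrix ι ι K)ᵀ * (g : Matrix ι ι K)ᵀ * diagonal d * ((g : Matrix ι ι K) * (h : Matrix ι ι K)) =
        (h : Matrix ι ι K)ᵀ * ((g : Matrix ι ι K)ᵀ * diagonal d * (g : Matrix ι ι K)) * (h : Matrix ι ι K) by
        simp only [mul_assoc], show _ = diagonal d from hg]
    exact hh
  inv_mem' := by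
    intro g hg
    show ((g⁻¹ : GL ι K) : Matrix ι ι K)ᵀ * diagonal d * ((g⁻¹ : GL ι K) : Matrix ι ι K) = diagonal d
    conv_lhs => rw [← show _ = diagonal d from hg]
    calc ((g⁻¹ : GL ι K) : Matrix ι ι K)ᵀ * ((g : Matrix ι ι K)ᵀ * diagonal d * (g : Matrix ι ι K)) *
          ((g⁻¹ : GL ι K) : Matrix ι ι K)
        = ((g : Matrix ι ι K) * ((g⁻¹ : GL ι K) : Matrix ι ι K))ᵀ * diagonal d *
          ((g : Matrix ι ι K) * ((g⁻¹ : GL ι K) : Matrix ι ι K)) := by simp only [transpose_mul, mul_assoc]
      _ = diagonal d := by simp [← Units.val_mul]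

theorem mem_orthD {d : ι → K} {g : GL ι K} :
    g ∈ orthD d ↔ (g : Matrix ι ι K)ᵀ * diagonal d * (g : Matrix ι ι K) = diagonal d := Iff.rfl

/-- The bilinear form. -/
def bd (d x y : ι → K) : K := ∑ a, d a * x a * y a

theorem bd_eq (d x y : ι → K) : bd d x y = x ⬝ᵥ (diagonal d *ᵥ y) := by
  simp only [bd, dotProduct, mulVec_diagonal]
  exact Finset.sum_congr rfl fun a _ => by ring

theorem bd_comm (d x y : ι → K) : bd d x y = bd d y x :=
  Finset.sum_congr rfl fun a _ => by ring

theorem bd_iso {d : ι → K} {g : GL ι K} (hg : g ∈ orthD d) (x y : ι → K) :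
    bd d ((g : Matrix ι ι K) *ᵥ x) ((g : Matrix ι ι K) *ᵥ y) = bd d x y := by
  rw [bd_eq, bd_eq, mulVec_mulVec, ← vecMul_transpose (g : Matrix ι ι K) x, ← dotProduct_mulVec, mulVec_mulVec,
    ← mul_assoc, mem_orthD.1 hg]

theorem bd_add_left (d x y z : ι → K) : bd d (x + y) z = bd d x z + bd d y z := by
  simp only [bd, Pi.add_apply, ← Finset.sum_add_distrib]
  exact Finset.sum_congr rfl fun a _ => by ring

/-- The matrix of a reflection. -/
def reflM (d x : ι → K) : Matrix ι ι K :=
  1 - (2 / bd d x x) • vecMulVec x (fun a => d a * x a)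

theorem reflM_mulVec (d x v : ι → K) :
    reflM d x *ᵥ v = v - (2 / bd d x x * bd d x v) • x := by
  rw [reflM, sub_mulVec, one_mulVec, smul_mulVec, vecMulVec_mulVec, op_smul_eq_smul, smul_smul]
  rfl

theorem reflM_sq {d x : ι → K} (hx : bd d x x ≠ 0) : reflM d x * reflM d x = 1 := by
  refine Matrix.ext_iff_mulVec.2 fun v => ?_
  have e : ∀ (c : K) (v : ι → K), bd d x (v - c • x) = bd d x v - c * bd d x x := fun c v => by
    simp only [bd, Pi.sub_apply, Pi.smul_apply, smul_eq_mul, Finset.mul_sum, ← Finset.sum_sub_distrib]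
    exact Finset.sum_congr rfl fun a _ => by ring
  rw [← mulVec_mulVec, reflM_mulVec, reflM_mulVec, one_mulVec, e, sub_sub, ← add_smul,
    div_mul_eq_mul_div, div_mul_cancel₀ _ hx,
    show 2 * bd d x v / bd d x x + 2 / bd d x x * (bd d x v - 2 * bd d x v) = 0 by ring, zero_smul, sub_zero]

theorem reflM_apply (d x : ι → K) (a b : ι) :
    reflM d x a b = (if a = b then 1 else 0) - 2 / bd d x x * (x a * (d b * x b)) := by
  simp [reflM, Matrix.one_apply, vecMulVec_apply]

open _root_.Classical in
/-- A reflection, or `1` for a singular vector. -/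
noncomputable def rfx (d x : ι → K) : GL ι K :=
  if hx : bd d x x = 0 then 1 else ⟨reflM d x, reflM d x, reflM_sq hx, reflM_sq hx⟩

theorem rfx_val {d x : ι → K} (hx : bd d x x ≠ 0) : (rfx d x : Matrix ι ι K) = reflM d x := by
  rw [rfx, dif_neg hx]

theorem rfx_sq {d x : ι → K} (hx : bd d x x ≠ 0) : rfx d x * rfx d x = 1 :=
  Units.ext (by rw [Units.val_mul, rfx_val hx, reflM_sq hx, Units.val_one])

theorem rfx_inv {d x : ι → K} (hx : bd d x x ≠ 0) : (rfx d x)⁻¹ = rfx d x :=
  inv_eq_of_mul_eq_one_left (rfx_sq hx)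

theorem rfx_mem {d x : ι → K} (hx : bd d x x ≠ 0) : rfx d x ∈ orthD d := by
  rw [mem_orthD, rfx_val hx]
  ext a b
  have e : diagonal d * reflM d x = (reflM d x)ᵀ * diagonal d := by
    ext a b
    simp only [diagonal_mul, mul_diagonal, transpose_apply, reflM_apply]
    by_cases h : a = b
    · subst h; ring
    · rw [if_neg h, if_neg (Ne.symm h)]; ring
  rw [← e, mul_assoc, reflM_sq hx, mul_one]

/-- Conjugating a reflection. -/
theorem conj_rfx {d : ι → K} {g : GL ι K} (hg : g ∈ orthD d) {x : ι → K} (hx : bd d x x ≠ 0) :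
    g * rfx d x * g⁻¹ = rfx d ((g : Matrix ι ι K) *ᵥ x) := by
  have hgx : bd d ((g : Matrix ι ι K) *ᵥ x) ((g : Matrix ι ι K) *ᵥ x) ≠ 0 := by rwa [bd_iso hg]
  rw [mul_inv_eq_iff_eq_mul]
  refine Units.ext (Matrix.ext_iff_mulVec.2 fun v => ?_)
  rw [Units.val_mul, Units.val_mul, rfx_val hx, rfx_val hgx, ← mulVec_mulVec, ← mulVec_mulVec, reflM_mulVec,
    reflM_mulVec, mulVec_sub, mulVec_smul, bd_iso hg, bd_iso hg]

theorem rfx_commute {d x y : ι → K} (hx : bd d x x ≠ 0) (hy : bd d y y ≠ 0) (hxy : bd d x y = 0) :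
    rfx d x * rfx d y = rfx d y * rfx d x := by
  refine mul_inv_eq_iff_eq_mul.1 ?_
  rw [conj_rfx (rfx_mem hx) hy, rfx_val hx, reflM_mulVec, hxy, mul_zero, zero_smul, sub_zero]

/-- Fixing the basis vectors outside a set. -/
def FixOut (S : Finset ι) (g : GL ι K) : Prop :=
  ∀ j, j ∉ S → (g : Matrix ι ι K) *ᵥ Pi.single j 1 = Pi.single j 1

theorem FixOut.apply {S : Finset ι} {g : GL ι K} (h : FixOut S g) {j : ι} (hj : j ∉ S) (i : ι) :
    (g : Matrix ι ι K) i j = if i = j then 1 else 0 := by
  have := congrFun (h j hj) i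
  rw [Matrix.mulVec_single_one, Matrix.col_apply, Pi.single_apply] at this
  exact this

theorem FixOut.mul {S : Finset ι} {g h : GL ι K} (hg : FixOut S g) (hh : FixOut S h) : FixOut S (g * h) :=
  fun j hj => by rw [Units.val_mul, ← mulVec_mulVec, hh j hj, hg j hj]

theorem FixOut.inv {S : Finset ι} {g : GL ι K} (hg : FixOut S g) : FixOut S g⁻¹ := fun j hj => by
  conv_lhs => rw [← hg j hj, mulVec_mulVec, ← Units.val_mul, inv_mul_cancel, Units.val_one, one_mulVec]

theorem fixOut_rfx {d : ι → K} {S : Finset ι} {x : ι → K} (hx : bd d x x ≠ 0)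
    (hS : ∀ j, j ∉ S → x j = 0) : FixOut S (rfx d x) := fun j hj => by
  rw [rfx_val hx, reflM_mulVec,
    show bd d x (Pi.single j 1) = 0 from Finset.sum_eq_zero fun a _ => by
      rcases eq_or_ne a j with rfl | ha
      · rw [hS a hj, mul_zero, zero_mul]
      · rw [Pi.single_eq_of_ne ha, mul_zero],
    mul_zero, zero_smul, sub_zero]

variable {d : ι → K}

theorem bd_single (i : ι) (v : ι → K) : bd d (Pi.single i 1) v = d i * v i := by
  rw [bd, Finset.sum_eq_single i]
  · rw [Pi.single_eq_same, mul_one]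
  · intro a _ ha; rw [Pi.single_eq_of_ne ha, mul_zero, zero_mul]
  · intro h; exact absurd (Finset.mem_univ i) h

variable (hd : ∀ i, d i ≠ 0)
include hd

theorem bd_single_ne (i : ι) : bd d (Pi.single i 1) (Pi.single i 1) ≠ 0 := by
  rw [bd_single, Pi.single_eq_same, mul_one]; exact hd i

theorem rfx_single_apply (h2 : (2 : K) ≠ 0) (i a b : ι) :
    (rfx d (Pi.single i 1) : Matrix ι ι K) a b = if a = b then (if a = i then -1 else 1) else 0 := by
  rw [rfx_val (bd_single_ne hd i), reflM_apply, bd_single, Pi.single_eq_same, mul_one]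
  rcases eq_or_ne a i with rfl | ha
  · rcases eq_or_ne a b with rfl | hb
    · simp only [if_true, Pi.single_eq_same]
      field_simp [hd a]
      ring
    · simp [hb, Pi.single_eq_of_ne (Ne.symm hb)]
  · simp [ha, Pi.single_eq_of_ne ha]

theorem conj_sign_apply (h2 : (2 : K) ≠ 0) (g : GL ι K) (i a b : ι) :
    ((rfx d (Pi.single i 1) * g * rfx d (Pi.single i 1) : GL ι K) : Matrix ι ι K) a b =
      (if a = i then -1 else 1) * (g : Matrix ι ι K) a b * (if b = i then -1 else 1) := by
  rw [Units.val_mul, Units.val_mul, Matrix.mul_apply, Finset.sum_eq_single b, Matrix.mul_apply,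
    Finset.sum_eq_single a, rfx_single_apply hd h2, rfx_single_apply hd h2, if_pos rfl, if_pos rfl]
  · intro c _ hc; rw [rfx_single_apply hd h2, if_neg (Ne.symm hc), zero_mul]
  · intro h; exact absurd (Finset.mem_univ a) h
  · intro c _ hc; rw [rfx_single_apply hd h2, if_neg hc, mul_zero]
  · intro h; exact absurd (Finset.mem_univ b) h

omit hd

/-- An element of an odd group with square one. -/
theorem eq_one_of_sq {G : Type*} [Group G] {L : Subgroup G} (hL : Odd (Nat.card L)) {g : G} (hg : g ∈ L)
    (h : g * g = 1) : g = 1 := by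
  have h1 : g ^ Nat.card L = 1 := by
    refine orderOf_dvd_iff_pow_eq_one.1 ?_
    rw [show orderOf g = orderOf (⟨g, hg⟩ : L) from Subgroup.orderOf_coe (⟨g, hg⟩ : L)]
    exact orderOf_dvd_natCard _
  obtain ⟨k, hk⟩ := hL
  rwa [hk, pow_succ, pow_mul, pow_two, h, one_pow, one_mul] at h1

theorem pow_card_mem {G : Type*} [Group G] {L : Subgroup G} {g : G} (hg : g ∈ L) : g ^ Nat.card L = 1 := by
  refine orderOf_dvd_iff_pow_eq_one.1 ?_
  rw [show orderOf g = orderOf (⟨g, hg⟩ : L) from Subgroup.orderOf_coe (⟨g, hg⟩ : L)]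
  exact orderOf_dvd_natCard _

theorem eq_one_of_four {G : Type*} [Group G] {L : Subgroup G} (hL : Odd (Nat.card L)) {g : G} (hg : g ∈ L)
    (h : g * g * (g * g) = 1) : g = 1 :=
  eq_one_of_sq hL hg (eq_one_of_sq hL (mul_mem hg hg) h)

theorem exists_sum_two [Fintype K] (h2 : (2 : K) ≠ 0) {a b : K} (ha : a ≠ 0) (hb : b ≠ 0) (c : K) :
    ∃ y z : K, a * y ^ 2 + b * z ^ 2 = c := by
  classical
  have hodd : Fintype.card K % 2 = 1 := FiniteField.odd_card_of_char_ne_two fun h => h2 (by
    haveI := ringChar.of_eq h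
    exact_mod_cast CharP.cast_eq_zero K 2)
  obtain ⟨y, z, hyz⟩ := FiniteField.exists_root_sum_quadratic (R := K)
    (f := Polynomial.C a * Polynomial.X ^ 2) (g := Polynomial.C b * Polynomial.X ^ 2 - Polynomial.C c)
    (by rw [Polynomial.degree_C_mul_X_pow 2 ha]; rfl)
    (by
      rw [Polynomial.degree_sub_eq_left_of_degree_lt]
      · rw [Polynomial.degree_C_mul_X_pow 2 hb]; rfl
      · rw [Polynomial.degree_C_mul_X_pow 2 hb]
        exact lt_of_le_of_lt Polynomial.degree_C_le (by decide)) hodd
  simp only [Polynomial.eval_mul, Polynomial.eval_C, Polynomial.eval_pow, Polynomial.eval_X,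
    Polynomial.eval_sub] at hyz
  exact ⟨y, z, by linear_combination hyz⟩

include hd

/-- A subgroup of odd order normalised by the orthogonal group is trivial. -/
theorem eq_bot_of_odd [Fintype K] (h2 : (2 : K) ≠ 0) (S : Finset ι) :
    3 ≤ S.card → ∀ L : Subgroup (GL ι K), (∀ g ∈ L, g ∈ orthD d ∧ FixOut S g) →
      (∀ h ∈ orthD d, FixOut S h → ∀ g ∈ L, h * g * h⁻¹ ∈ L) → Odd (Nat.card L) → L = ⊥ := by
  classical
  induction S using Finset.strongInduction with
  | _ S ih =>
    intro hS L hL hn hodd
    by_contra hne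
    set s : ι → GL ι K := fun i => rfx d (Pi.single i 1) with hs
    have hsO : ∀ i, s i ∈ orthD d := fun i => rfx_mem (bd_single_ne hd i)
    have hsF : ∀ i ∈ S, FixOut S (s i) := fun i hi => fixOut_rfx (bd_single_ne hd i) fun j hj => by
      rw [Pi.single_eq_of_ne (fun h => hj (by rw [h]; exact hi))]
    have hsinv : ∀ i, (s i)⁻¹ = s i := fun i => rfx_inv (bd_single_ne hd i)
    have hcol : ∀ g ∈ L, ∀ j, j ∉ S → ∀ k, k ≠ j → (g : Matrix ι ι K) k j = 0 := fun g hg j hj k hk => by
      rw [(hL g hg).2.apply hj, if_neg hk]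
    -- an element commuting with a reflection
    obtain ⟨i, hi, g, hg, hg1, hgi⟩ : ∃ i ∈ S, ∃ g ∈ L, g ≠ 1 ∧ s i * g * s i = g := by
      by_contra hall
      push Not at hall
      refine hne ((Subgroup.eq_bot_iff_forall _).2 fun g hg => ?_)
      have hinv : ∀ i ∈ S, s i * g * s i = g⁻¹ := by
        intro i hi
        let φ : L → L := fun x => ⟨s i * x.1 * s i, by
          have := hn (s i) (hsO i) (hsF i hi) x.1 x.2
          rwa [hsinv] at this⟩
        have hmul : ∀ x y, φ (x * y) = φ x * φ y := fun x y => Subtype.ext (by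
          show s i * (x.1 * y.1) * s i = s i * x.1 * s i * (s i * y.1 * s i)
          rw [show s i * x.1 * s i * (s i * y.1 * s i) = s i * x.1 * (s i * s i) * (y.1 * s i) by group,
            rfx_sq (bd_single_ne hd i)]
          group)
        have hfpf : MonoidHom.FixedPointFree φ := fun x hx => by
          by_contra hx1
          exact hall i hi x.1 x.2 (fun h => hx1 (Subtype.ext h)) (congrArg Subtype.val hx)
        have hinvol : Function.Involutive φ := fun x => Subtype.ext (by
          show s i * (s i * x.1 * s i) * s i = x.1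
          rw [show s i * (s i * x.1 * s i) * s i = (s i * s i) * x.1 * (s i * s i) by group,
            rfx_sq (bd_single_ne hd i), one_mul, mul_one])
        have := congrFun (MonoidHom.FixedPointFree.coe_eq_inv_of_involutive (φ := MonoidHom.mk' φ hmul) hfpf hinvol)
          (⟨g, hg⟩ : L)
        exact congrArg Subtype.val this
      -- the element is diagonal
      have hdiag : ∀ a b, a ≠ b → (g : Matrix ι ι K) a b = 0 := by
        intro a b hab
        by_cases hb : b ∈ S
        · obtain ⟨c, hc, hca, hcb⟩ : ∃ c ∈ S, c ≠ a ∧ c ≠ b := by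
            obtain ⟨c, hc⟩ := Finset.card_pos.1 (show 0 < ((S.erase a).erase b).card by
              have := Finset.pred_card_le_card_erase (s := S) (a := a)
              have := Finset.pred_card_le_card_erase (s := S.erase a) (a := b)
              omega)
            simp only [Finset.mem_erase] at hc
            exact ⟨c, hc.2.2, hc.2.1, hc.1⟩
          have e1 := congrArg (fun x : GL ι K => (x : Matrix ι ι K) a b) ((hinv b hb).trans (hinv c hc).symm)
          simp only [hs, conj_sign_apply hd h2, if_neg hab, if_true, if_neg (Ne.symm hca), if_neg (Ne.symm hcb)] at e1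
          exact (mul_eq_zero.1 (show (2 : K) * (g : Matrix ι ι K) a b = 0 by linear_combination -e1)).resolve_left h2
        · exact hcol g hg b hb a hab
      obtain ⟨i, hi⟩ := Finset.card_pos.1 (show 0 < S.card by omega)
      by_contra hg1
      refine hall i hi g hg hg1 (Units.ext (Matrix.ext fun a b => ?_))
      rw [hs, conj_sign_apply hd h2]
      rcases eq_or_ne a b with rfl | hab
      · split_ifs <;> ring
      · rw [hdiag a b hab, mul_zero, zero_mul]
    -- it fixes the basis vector
    have hrow : ∀ k, k ≠ i → (g : Matrix ι ι K) i k = 0 ∧ (g : Matrix ι ι K) k i = 0 := fun k hk => by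
      have e1 := congrArg (fun x : GL ι K => (x : Matrix ι ι K) i k) hgi
      have e2 := congrArg (fun x : GL ι K => (x : Matrix ι ι K) k i) hgi
      simp only [hs, conj_sign_apply hd h2, if_true, if_neg hk] at e1 e2
      exact ⟨(mul_eq_zero.1 (show (2 : K) * (g : Matrix ι ι K) i k = 0 by linear_combination -e1)).resolve_left h2,
        (mul_eq_zero.1 (show (2 : K) * (g : Matrix ι ι K) k i = 0 by linear_combination -e2)).resolve_left h2⟩
    have heig : (g : Matrix ι ι K) *ᵥ Pi.single i 1 = (g : Matrix ι ι K) i i • Pi.single i 1 := by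
      ext k
      rw [Matrix.mulVec_single_one, Matrix.col_apply, Pi.smul_apply, smul_eq_mul, Pi.single_apply]
      rcases eq_or_ne k i with rfl | hk
      · rw [if_pos rfl, mul_one]
      · rw [if_neg hk, mul_zero, (hrow k hk).2]
    have hii : (g : Matrix ι ι K) i i = 1 := by
      have hsq : (g : Matrix ι ι K) i i * (g : Matrix ι ι K) i i = 1 := by
        have h := bd_iso (hL g hg).1 (Pi.single i 1) (Pi.single i 1)
        rw [heig, bd_single, Pi.single_eq_same, mul_one] at h
        have e : bd d ((g : Matrix ι ι K) i i • Pi.single i (1 : K)) ((g : Matrix ι ι K) i i • Pi.single i 1) =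
            (g : Matrix ι ι K) i i * (g : Matrix ι ι K) i i * d i := by
          rw [bd, Finset.sum_eq_single i]
          · simp only [Pi.smul_apply, smul_eq_mul, Pi.single_eq_same]; ring
          · intro a _ ha; simp [Pi.single_eq_of_ne ha]
          · intro h; exact absurd (Finset.mem_univ i) h
        rw [e] at h
        exact mul_right_cancel₀ (hd i) (h.trans (one_mul _).symm)
      have hpw : ∀ k : ℕ, ((g ^ k : GL ι K) : Matrix ι ι K) *ᵥ Pi.single i 1 =
          ((g : Matrix ι ι K) i i) ^ k • Pi.single i 1 := by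
        intro k
        induction k with
        | zero => rw [pow_zero, pow_zero, Units.val_one, one_mulVec, one_smul]
        | succ k ihk => rw [pow_succ, Units.val_mul, ← mulVec_mulVec, heig, mulVec_smul, ihk, smul_smul, pow_succ']
      have h1 : g ^ Nat.card L = 1 := pow_card_mem hg
      have h3 := congrFun (hpw (Nat.card L)) i
      rw [h1] at h3
      simp only [Units.val_one, one_mulVec, Pi.single_eq_same, Pi.smul_apply, smul_eq_mul, mul_one] at h3
      obtain ⟨k, hk⟩ := hodd
      rw [hk, pow_succ, pow_mul, pow_two, hsq, one_pow, one_mul] at h3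
      exact h3.symm
    have hgF : FixOut (S.erase i) g := fun j hj => by
      rcases eq_or_ne j i with rfl | hji
      · rw [heig, hii, one_smul]
      · exact (hL g hg).2 j fun hjS => hj (Finset.mem_erase.2 ⟨hji, hjS⟩)
    rcases Nat.lt_or_ge S.card 4 with h4 | h4
    swap
    · have hcard := Finset.card_erase_of_mem hi
      let L' : Subgroup (GL ι K) :=
        { carrier := {x | x ∈ L ∧ FixOut (S.erase i) x}
          one_mem' := ⟨one_mem _, fun j _ => by rw [Units.val_one, one_mulVec]⟩
          mul_mem' := fun hx hy => ⟨mul_mem hx.1 hy.1, hx.2.mul hy.2⟩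
          inv_mem' := fun hx => ⟨inv_mem hx.1, hx.2.inv⟩ }
      have hle : L' ≤ L := fun x hx => hx.1
      have hbot := ih _ (Finset.erase_ssubset hi) (by omega) L' (fun x hx => ⟨(hL x hx.1).1, hx.2⟩)
        (fun h hh hF x hx => ⟨hn h hh (fun j hj => hF j fun hj' => hj (Finset.mem_of_mem_erase hj')) x hx.1,
          (hF.mul hx.2).mul hF.inv⟩)
        (hodd.of_dvd_nat (Subgroup.card_dvd_of_le hle))
      exact hg1 ((Subgroup.eq_bot_iff_forall _).1 hbot g ⟨hg, hgF⟩)
    -- a rotation of a plane
    obtain ⟨j, k, hjk, hjkS⟩ := Finset.card_eq_two.1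
      (show (S.erase i).card = 2 by rw [Finset.card_erase_of_mem hi]; omega)
    have hji : j ≠ i := Finset.ne_of_mem_erase (by rw [hjkS]; simp)
    have hki : k ≠ i := Finset.ne_of_mem_erase (by rw [hjkS]; simp)
    have hjS : j ∈ S := Finset.mem_of_mem_erase (a := i) (by rw [hjkS]; simp)
    have hkS : k ∈ S := Finset.mem_of_mem_erase (a := i) (by rw [hjkS]; simp)
    rw [hjkS] at hgF
    have hc0 : ∀ {x : GL ι K}, FixOut {j, k} x → x ∈ orthD d → ∀ a, a ≠ j → a ≠ k → ∀ b,
        (x : Matrix ι ι K) a b = if a = b then 1 else 0 := by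
      intro x hx hxO a haj hak b
      have haS : a ∉ ({j, k} : Finset ι) := by simp [haj, hak]
      have h := bd_iso hxO (Pi.single a 1) (Pi.single b 1)
      rw [hx a haS, bd_single, bd_single, Matrix.mulVec_single_one, Matrix.col_apply] at h
      have := mul_left_cancel₀ (hd a) h
      rw [this, Pi.single_apply]
    have hgO := (hL g hg).1
    have hmm : ∀ {x y : GL ι K}, FixOut {j, k} x → x ∈ orthD d → ∀ a b,
        ((x * y : GL ι K) : Matrix ι ι K) a b = if a = j ∨ a = k then
          (x : Matrix ι ι K) a j * (y : Matrix ι ι K) j b + (x : Matrix ι ι K) a k * (y : Matrix ι ι K) k b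
        else (y : Matrix ι ι K) a b := by
      intro x y hx hxO a b
      rw [Units.val_mul, Matrix.mul_apply]
      split_ifs with ha
      · rw [Finset.sum_eq_add j k hjk]
        · intro c _ hc
          rw [hx.apply (by simp [hc.1, hc.2]) a, if_neg (by rintro rfl; rcases ha with h | h <;> simp [h] at hc),
            zero_mul]
        · intro h; exact absurd (Finset.mem_univ j) h
        · intro h; exact absurd (Finset.mem_univ k) h
      · push Not at ha
        rw [Finset.sum_eq_single a]
        · rw [hc0 hx hxO a ha.1 ha.2, if_pos rfl, one_mul]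
        · intro c _ hc; rw [hc0 hx hxO a ha.1 ha.2, if_neg (Ne.symm hc), zero_mul]
        · intro h; exact absurd (Finset.mem_univ a) h
    set u := (g : Matrix ι ι K) j j with hu
    set v := (g : Matrix ι ι K) k j with hv
    set v' := (g : Matrix ι ι K) j k with hv'
    set u' := (g : Matrix ι ι K) k k with hu'
    have hbil : ∀ (x : GL ι K), FixOut {j, k} x → x ∈ orthD d → ∀ a b, (a = j ∨ a = k) → (b = j ∨ b = k) →
        d j * (x : Matrix ι ι K) j a * (x : Matrix ι ι K) j b + d k * (x : Matrix ι ι K) k a * (x : Matrix ι ι K) k b =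
          if a = b then d a else 0 := by
      intro x hx hxO a b ha hb
      have h := bd_iso hxO (Pi.single a 1) (Pi.single b 1)
      rw [bd_single, Pi.single_apply, bd, Finset.sum_eq_add j k hjk] at h
      · simp only [Matrix.mulVec_single_one, Matrix.col_apply] at h
        rw [h]; split_ifs <;> simp
      · intro c _ hc
        simp only [Matrix.mulVec_single_one, Matrix.col_apply]
        rw [hc0 hx hxO c hc.1 hc.2, if_neg (by rintro rfl; rcases ha with h | h <;> simp [h] at hc), mul_zero,
          zero_mul]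
      · intro h; exact absurd (Finset.mem_univ j) h
      · intro h; exact absurd (Finset.mem_univ k) h
    have eA := hbil g hgF hgO j j (Or.inl rfl) (Or.inl rfl)
    have eB := hbil g hgF hgO j k (Or.inl rfl) (Or.inr rfl)
    have eC := hbil g hgF hgO k k (Or.inr rfl) (Or.inr rfl)
    rw [if_pos rfl] at eA eC
    rw [if_neg hjk] at eB
    simp only [← hu, ← hv, ← hv', ← hu'] at eA eB eC
    have hone : ∀ {x : GL ι K}, FixOut {j, k} x → x ∈ orthD d → (x : Matrix ι ι K) j j = 1 →
        (x : Matrix ι ι K) j k = 0 → (x : Matrix ι ι K) k j = 0 → (x : Matrix ι ι K) k k = 1 → x = 1 := by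
      intro x hx hxO h1 h2' h3 h4'
      refine Units.ext (Matrix.ext fun a b => ?_)
      rw [Units.val_one, Matrix.one_apply]
      by_cases hb : b = j ∨ b = k
      · by_cases ha : a = j ∨ a = k
        · rcases ha with rfl | rfl <;> rcases hb with rfl | rfl
          · rw [if_pos rfl, h1]
          · rw [if_neg hjk, h2']
          · rw [if_neg (Ne.symm hjk), h3]
          · rw [if_pos rfl, h4']
        · push Not at ha
          exact hc0 hx hxO a ha.1 ha.2 b
      · exact hx.apply (by simpa using hb) a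
    have hsq : ((g * g : GL ι K) : Matrix ι ι K) j j = u * u + v' * v ∧
        ((g * g : GL ι K) : Matrix ι ι K) j k = u * v' + v' * u' ∧
        ((g * g : GL ι K) : Matrix ι ι K) k j = v * u + u' * v ∧
        ((g * g : GL ι K) : Matrix ι ι K) k k = v * v' + u' * u' := by
      refine ⟨?_, ?_, ?_, ?_⟩ <;> rw [hmm hgF hgO] <;> simp [hu, hv, hv', hu']
    -- the relation for the inverse
    have huu : u' * u' = u * u := by
      have hi' := hbil g⁻¹ hgF.inv (inv_mem hgO) j j (Or.inl rfl) (Or.inl rfl)
      rw [if_pos rfl] at hi'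
      -- the inverse is the adjoint
      have hadj : ∀ a b, ((g⁻¹ : GL ι K) : Matrix ι ι K) a b * d a = d b * (g : Matrix ι ι K) b a := by
        intro a b
        have h := mem_orthD.1 hgO
        have h' : (g : Matrix ι ι K)ᵀ * diagonal d = diagonal d * ((g⁻¹ : GL ι K) : Matrix ι ι K) := by
          calc (g : Matrix ι ι K)ᵀ * diagonal d
              = (g : Matrix ι ι K)ᵀ * diagonal d * ((g : Matrix ι ι K) * ((g⁻¹ : GL ι K) : Matrix ι ι K)) := by
                rw [← Units.val_mul, mul_inv_cancel, Units.val_one, mul_one]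
            _ = _ := by rw [← mul_assoc, h]
        have h'' := congrFun (congrFun h' a) b
        rw [mul_diagonal, diagonal_mul, transpose_apply] at h''
        linear_combination -h''
      have a1 := hadj j j
      have a2 := hadj k j
      rw [← hu] at a1
      rw [← hv'] at a2
      have e1 : ((g⁻¹ : GL ι K) : Matrix ι ι K) j j = u := mul_right_cancel₀ (hd j) (by linear_combination a1)
      have e2 : ((g⁻¹ : GL ι K) : Matrix ι ι K) k j = d j * v' / d k := by
        rw [eq_div_iff (hd k)]; linear_combination a2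
      rw [e1, e2] at hi'
      have h5 : d k * u * u + d j * v' * v' = d k := by
        have := congrArg (· * (d k / d j)) hi'
        field_simp [hd j, hd k] at this
        linear_combination this
      refine mul_left_cancel₀ (hd k) ?_
      linear_combination eC - h5
    rcases eq_or_ne u 0 with hu0 | hu0
    · -- an element of order four
      have hu'0 : u' = 0 := mul_self_eq_zero.1 (by rw [huu, hu0, mul_zero])
      rw [hu0] at eA
      rw [hu'0] at eC
      refine hg1 (eq_one_of_four hodd hg (hone ((hgF.mul hgF).mul (hgF.mul hgF))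
        (mul_mem (mul_mem hgO hgO) (mul_mem hgO hgO)) ?_ ?_ ?_ ?_))
      all_goals
        rw [hmm (hgF.mul hgF) (mul_mem hgO hgO)]
        simp only [hsq, hu0, hu'0, true_or, or_true, if_true, zero_mul, mul_zero, add_zero, zero_add]
      all_goals
        first
          | ring1
          | (refine mul_left_cancel₀ (mul_ne_zero (hd j) (hd k)) ?_
             linear_combination (d j * v' * v') * eA + (d j : K) * eC)
    rcases mul_self_eq_mul_self_iff.1 huu with hpos | hneg
    swap
    · -- an involution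
      have hrel : d j * v' = d k * v := mul_left_cancel₀ hu0 (by rw [hneg] at eB; linear_combination eB)
      refine hg1 (eq_one_of_sq hodd hg (hone (hgF.mul hgF) (mul_mem hgO hgO) ?_ ?_ ?_ ?_))
      · rw [hsq.1]
        refine mul_left_cancel₀ (hd j) ?_
        linear_combination eA + v * hrel
      · rw [hsq.2.1, hneg]; ring
      · rw [hsq.2.2.1, hneg]; ring
      · rw [hsq.2.2.2, hneg]
        refine mul_left_cancel₀ (hd j) ?_
        linear_combination eA + v * hrel
    have hrel : d j * v' = -(d k * v) := mul_left_cancel₀ hu0 (by rw [hpos] at eB; linear_combination eB)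
    have hu1 : u ≠ 1 := by
      intro h
      have hv0 : v = 0 := by
        rw [h] at eA
        exact (mul_self_eq_zero.1 ((mul_eq_zero.1 (show d k * (v * v) = 0 by linear_combination eA)).resolve_left (hd k)))
      have hv'0 : v' = 0 := by
        rw [hv0, mul_zero, neg_zero] at hrel
        exact (mul_eq_zero.1 hrel).resolve_left (hd j)
      exact hg1 (hone hgF hgO h hv'0 hv0 (hpos.trans h))
    obtain ⟨y, z, hyz⟩ := exists_sum_two h2 (hd j) (hd k) (-(d i) / u)
    set x : ι → K := Pi.single i 1 + (Pi.single j y + Pi.single k z) with hxdef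
    have hxi : x i = 1 := by simp [hxdef, hji.symm, hki.symm]
    have hxj : x j = y := by simp [hxdef, hji, hjk]
    have hxk : x k = z := by simp [hxdef, hki, hjk.symm]
    have hx0 : ∀ a, a ≠ i → a ≠ j → a ≠ k → x a = 0 := fun a h1 h2' h3 => by simp [hxdef, h1, h2', h3]
    have hsum : ∀ w : ι → K, bd d x w = d i * w i + (d j * y * w j + d k * z * w k) := fun w => by
      rw [hxdef, bd_add_left, bd_add_left, bd_single]
      congr 1
      congr 1
      · rw [bd, Finset.sum_eq_single j (fun a _ ha => by simp [ha]) (fun h => absurd (Finset.mem_univ j) h),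
          Pi.single_eq_same]
      · rw [bd, Finset.sum_eq_single k (fun a _ ha => by simp [ha]) (fun h => absurd (Finset.mem_univ k) h),
          Pi.single_eq_same]
    have hQ : bd d x x ≠ 0 := by
      rw [hsum, hxi, hxj, hxk]
      intro h
      have : d i * (1 - 1 / u) = 0 := by linear_combination h - hyz
      rcases mul_eq_zero.1 this with h' | h'
      · exact hd i h'
      · field_simp at h'
        exact hu1 (by linear_combination h')
    set w := (g : Matrix ι ι K) *ᵥ x with hw
    have hperp : bd d x w = 0 := by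
      have hw' : ∀ a, a = j ∨ a = k → w a = (g : Matrix ι ι K) a j * y + (g : Matrix ι ι K) a k * z := by
        intro a ha
        rw [hw, Matrix.mulVec, dotProduct, Finset.sum_eq_add j k hjk, hxj, hxk]
        · intro c _ hc
          rw [hgF.apply (by simp [hc.1, hc.2]) a, if_neg (by rintro rfl; rcases ha with h | h <;> simp [h] at hc),
            zero_mul]
        · intro h; exact absurd (Finset.mem_univ j) h
        · intro h; exact absurd (Finset.mem_univ k) h
      have hwi : w i = 1 := by
        rw [hw, Matrix.mulVec, dotProduct, Finset.sum_eq_single i]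
        · rw [hii, hxi, mul_one]
        · intro c _ hc; rw [hc0 hgF hgO i hji.symm hki.symm, if_neg (Ne.symm hc), zero_mul]
        · intro h; exact absurd (Finset.mem_univ i) h
      rw [hsum, hw' j (Or.inl rfl), hw' k (Or.inr rfl), hwi, ← hu, ← hv, ← hv', ← hu', hpos]
      field_simp at hyz
      linear_combination hyz + (y * z) * hrel
    have hQw : bd d w w ≠ 0 := by rwa [hw, bd_iso hgO]
    have hz : rfx d w * rfx d x ∈ L := by
      have hF : FixOut S (rfx d x) := fixOut_rfx hQ fun a ha => hx0 a (fun h => ha (h ▸ hi))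
        (fun h => ha (h ▸ hjS)) (fun h => ha (h ▸ hkS))
      have := mul_mem hg (hn _ (rfx_mem hQ) hF _ (inv_mem hg))
      rw [rfx_inv hQ] at this
      rwa [hw, ← conj_rfx hgO hQ, show g * rfx d x * g⁻¹ * rfx d x = g * (rfx d x * g⁻¹ * rfx d x) by group]
    have hz1 := eq_one_of_sq hodd hz (by
      rw [mul_assoc, ← mul_assoc (rfx d x), rfx_commute hQ hQw hperp, mul_assoc (rfx d w), rfx_sq hQ, mul_one,
        rfx_sq hQw])
    rw [mul_eq_one_iff_eq_inv, rfx_inv hQ] at hz1
    have h1 := congrArg (fun r : GL ι K => ((r : Matrix ι ι K) *ᵥ x) i) hz1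
    simp only [rfx_val hQ, rfx_val hQw, reflM_mulVec, bd_comm d w x, hperp, mul_zero, zero_smul, sub_zero,
      div_mul_cancel₀ _ hQ, Pi.sub_apply, Pi.smul_apply, smul_eq_mul, hxi, mul_one] at h1
    simp only [Pi.zero_apply, sub_zero] at h1
    exact h2 (by linear_combination h1)

omit hd in
theorem rfx_det {x : ι → K} (hx : bd d x x ≠ 0) :
    ((rfx d x : GL ι K) : Matrix ι ι K).det = -1 := by
  rw [rfx_val hx, reflM, sub_eq_add_neg, ← neg_smul, ← smul_vecMulVec, vecMulVec_eq Unit,
    det_one_add_replicateCol_mul_replicateRow, dotProduct_smul, smul_eq_mul,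
    show ((fun a => d a * x a) ⬝ᵥ x) = bd d x x from rfl, neg_mul, div_mul_cancel₀ _ hx]
  ring

omit hd in
theorem det_sq_of_orthD {d : ι → K} (hd : ∀ i, d i ≠ 0) {g : GL ι K} (hg : g ∈ orthD d) :
    (g : Matrix ι ι K).det * (g : Matrix ι ι K).det = 1 := by
  have h := congrArg Matrix.det (mem_orthD.1 hg)
  rw [det_mul, det_mul, det_transpose, det_diagonal] at h
  refine mul_right_cancel₀ (Finset.prod_ne_zero_iff.2 fun a _ => hd a : ∏ a, d a ≠ 0) ?_
  linear_combination h

/-- A subgroup of odd order normal in the special orthogonal group is trivial. -/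
theorem eq_bot_of_odd_special [Fintype K] (h2 : (2 : K) ≠ 0) (hn : 3 ≤ Fintype.card ι) {L : Subgroup (GL ι K)}
    (hL : L ≤ orthD d) (hodd : Odd (Nat.card L))
    (hnorm : ∀ h ∈ orthD d, (h : Matrix ι ι K).det = 1 → ∀ g ∈ L, h * g * h⁻¹ ∈ L) : L = ⊥ := by
  classical
  haveI : Nonempty ι := Fintype.card_pos_iff.1 (by omega)
  obtain ⟨i⟩ := ‹Nonempty ι›
  set r := rfx d (Pi.single i 1)
  have hrO : r ∈ orthD d := rfx_mem (bd_single_ne hd i)
  have hr2 : r * r = 1 := rfx_sq (bd_single_ne hd i)
  have hrd : (r : Matrix ι ι K).det = -1 := rfx_det (bd_single_ne hd i)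
  have hrinv : r⁻¹ = r := inv_eq_of_mul_eq_one_left hr2
  set L' : Subgroup (GL ι K) := L.map (MulAut.conj r).toMonoidHom with hL'
  have hdet : ∀ g ∈ L, (g : Matrix ι ι K).det = 1 := fun g hg => by
    have h1 : g ^ Nat.card L = 1 := pow_card_mem hg
    obtain ⟨k, hk⟩ := hodd
    have h3 := congrArg (fun x : GL ι K => (x : Matrix ι ι K).det) h1
    simp only [Units.val_pow_eq_pow_val, det_pow, Units.val_one, det_one] at h3
    rw [hk, pow_succ, pow_mul, pow_two, det_sq_of_orthD hd (hL hg), one_pow, one_mul] at h3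
    exact h3
  have hL'O : L' ≤ orthD d := by
    rintro _ ⟨g, hg, rfl⟩
    exact mul_mem (mul_mem hrO (hL hg)) (inv_mem hrO)
  have hnorm' : ∀ h ∈ orthD d, (h : Matrix ι ι K).det = 1 → ∀ g ∈ L', h * g * h⁻¹ ∈ L' := by
    rintro h hh hd1 _ ⟨g, hg, rfl⟩
    refine ⟨(r * h * r) * g * (r * h * r)⁻¹, hnorm _ (mul_mem (mul_mem hrO hh) hrO) ?_ g hg, ?_⟩
    · rw [Units.val_mul, Units.val_mul, det_mul, det_mul, hrd, hd1]; ring
    · show r * ((r * h * r) * g * (r * h * r)⁻¹) * r⁻¹ = h * (r * g * r⁻¹) * h⁻¹
      rw [show r * ((r * h * r) * g * (r * h * r)⁻¹) * r⁻¹ =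
        (r * r) * h * (r * g * r⁻¹) * h⁻¹ * (r * r)⁻¹ by group, hr2, one_mul, inv_one, mul_one]
  have hswap : ∀ h ∈ orthD d, (h : Matrix ι ι K).det = -1 →
      (∀ g ∈ L, h * g * h⁻¹ ∈ L') ∧ ∀ g ∈ L', h * g * h⁻¹ ∈ L := by
    intro h hh hd1
    refine ⟨fun g hg => ⟨(r * h) * g * (r * h)⁻¹, hnorm _ (mul_mem hrO hh) ?_ g hg, ?_⟩, ?_⟩
    · rw [Units.val_mul, det_mul, hrd, hd1]; ring
    · show r * ((r * h) * g * (r * h)⁻¹) * r⁻¹ = h * g * h⁻¹
      rw [show r * ((r * h) * g * (r * h)⁻¹) * r⁻¹ = (r * r) * (h * g * h⁻¹) * (r * r)⁻¹ by group, hr2, one_mul,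
        inv_one, mul_one]
    · rintro _ ⟨g, hg, rfl⟩
      show h * (r * g * r⁻¹) * h⁻¹ ∈ L
      rw [show h * (r * g * r⁻¹) * h⁻¹ = (h * r) * g * (h * r)⁻¹ by group]
      exact hnorm _ (mul_mem hh hrO) (by rw [Units.val_mul, det_mul, hrd, hd1]; ring) g hg
  set M := L ⊔ L' with hM
  have hMn : ∀ h ∈ orthD d, ∀ g ∈ M, h * g * h⁻¹ ∈ M := by
    intro h hh g hg
    rcases mul_self_eq_one_iff.1 (det_sq_of_orthD hd hh) with hd1 | hd1
    · exact Subgroup.mem_comap.1 ((sup_le (a := L) (b := L') (c := M.comap (MulAut.conj h).toMonoidHom)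
        (fun x hx => (le_sup_left : L ≤ M) (hnorm h hh hd1 x hx))
        (fun x hx => (le_sup_right : L' ≤ M) (hnorm' h hh hd1 x hx))) hg)
    · exact Subgroup.mem_comap.1 ((sup_le (a := L) (b := L') (c := M.comap (MulAut.conj h).toMonoidHom)
        (fun x hx => (le_sup_right : L' ≤ M) ((hswap h hh hd1).1 x hx))
        (fun x hx => (le_sup_left : L ≤ M) ((hswap h hh hd1).2 x hx))) hg)
  have hL'N : L' ≤ Subgroup.normalizer (L : Set (GL ι K)) := by
    intro x hx
    have hxO := hL'O hx
    have hxd : (x : Matrix ι ι K).det = 1 := by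
      obtain ⟨g, hg, rfl⟩ := hx
      show ((r * g * r⁻¹ : GL ι K) : Matrix ι ι K).det = 1
      rw [hrinv, Units.val_mul, Units.val_mul, det_mul, det_mul, hrd, hdet g hg]; ring
    refine Subgroup.mem_normalizer_iff.2 fun y => ⟨hnorm x hxO hxd y, fun h => ?_⟩
    have hi : ((x⁻¹ : GL ι K) : Matrix ι ι K).det = 1 := by
      have h' := congrArg (fun z : GL ι K => (z : Matrix ι ι K).det) (mul_inv_cancel x)
      simp only [Units.val_mul, det_mul, hxd, one_mul, Units.val_one, det_one] at h'
      exact h'
    have := hnorm x⁻¹ (inv_mem hxO) hi _ h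
    rwa [show x⁻¹ * (x * y * x⁻¹) * x⁻¹⁻¹ = y by group] at this
  have hcard : Odd (Nat.card M) := by
    have hcL' : Nat.card L' = Nat.card L := Subgroup.card_map_of_injective (MulAut.conj r).injective
    have hnm : (L.subgroupOf M).Normal := by
      refine (Subgroup.normal_subgroupOf_iff_le_normalizer le_sup_left).2 (sup_le Subgroup.le_normalizer hL'N)
    have e1 := Subgroup.card_eq_card_quotient_mul_card_subgroup (L.subgroupOf M)
    have hsurj : Function.Surjective ((QuotientGroup.mk' (L.subgroupOf M)).comp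
        (Subgroup.inclusion (le_sup_right : L' ≤ M))) := by
      intro x
      induction x using QuotientGroup.induction_on with | _ x => ?_
      have hx' : x.1 ∈ ((L' ⊔ L : Subgroup (GL ι K)) : Set (GL ι K)) := by rw [sup_comm]; exact x.2
      rw [Subgroup.coe_mul_of_left_le_normalizer_right L' L hL'N] at hx'
      obtain ⟨a, ha, b, hb, hab⟩ := hx'
      refine ⟨⟨a, ha⟩, QuotientGroup.eq.2 ?_⟩
      rw [Subgroup.mem_subgroupOf]
      show a⁻¹ * x.1 ∈ L
      rw [← hab, inv_mul_cancel_left]
      exact hb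
    have h2' := Subgroup.card_dvd_of_surjective _ hsurj
    rw [hcL'] at h2'
    rw [e1, Nat.card_congr (Subgroup.subgroupOfEquivOfLe (le_sup_left : L ≤ M)).toEquiv]
    exact Nat.odd_mul.2 ⟨hodd.of_dvd_nat h2', hodd⟩
  have hMO : M ≤ orthD d := sup_le hL hL'O
  have hbot := eq_bot_of_odd hd h2 Finset.univ (by rw [Finset.card_univ]; exact hn) M
    (fun g hg => ⟨hMO hg, fun j hj => absurd (Finset.mem_univ j) hj⟩) (fun h hh _ => hMn h hh) hcard
  exact le_bot_iff.1 (hbot ▸ le_sup_left)

end Cfsg.Agent.Lib.Balance
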